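import Mathlib
import Cfsg.Agent.Lib.Helper5.OmegaSimple
import Cfsg.Agent.Lib.Helper5.OmegaCenter
import Cfsg.Agent.Lib.Helper13.OrthAE

set_option autoImplicit false
set_option linter.unusedSimpArgs false
set_option linter.unusedVariables false
set_option linter.unusedSectionVars false

/-! Automorphisms of `PΩ`: basic set-up (proof-free Eichler elements of `Ω`, the projective group,
point stabilisers, the groups `Q_u`). -/

namespace Cfsg.Agent.Lib.Helper45.OAut

open QuadraticMap Module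
open Cfsg.Agent.Lib.Helper44 Cfsg.Agent.Lib.Helper5

variable {F V : Type*} [Field F] [AddCommGroup V] [Module F V]

/-- standing hypotheses -/
class Good [Fintype F] [FiniteDimensional F V] (Q : QuadraticForm F V) : Prop where
  nd : (polarBilin Q).Nondegenerate
  dim : 7 ≤ finrank F V

variable [Fintype F] [FiniteDimensional F V]

lemma Good.five {Q : QuadraticForm F V} (h : Good Q) : 5 ≤ finrank F V := by
  have := h.dim; omega

open Classical in
/-- the Eichler transformation as an element of `Ω` (equal to `1` when it makes no sense) -/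
noncomputable def eo (Q : QuadraticForm F V) [hG : Good Q] (u w : V) : OmQ Q :=
  if h : Q u = 0 ∧ polar Q u w = 0 then eichOm hG.nd hG.five u w h.1 h.2 else 1

variable {Q : QuadraticForm F V} [hG : Good Q]

lemma eo_lin {u w : V} (hu : Q u = 0) (huw : polar Q u w = 0) (x : V) :
    (eo Q u w).lin x = x + polar Q w x • u - polar Q u x • w - (Q w * polar Q u x) • u := by
  unfold eo
  rw [dif_pos ⟨hu, huw⟩, eichOm_lin]

lemma eo_of_not {u w : V} (h : ¬ (Q u = 0 ∧ polar Q u w = 0)) : eo Q u w = 1 := by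
  unfold eo
  rw [dif_neg h]

omit [Fintype F] [FiniteDimensional F V] hG in
lemma lin_inv_lin (g : OmQ Q) (x : V) : g.lin (g⁻¹.lin x) = x := by
  rw [← OmQ.lin_mul, mul_inv_cancel]; rfl

omit [Fintype F] [FiniteDimensional F V] hG in
lemma inv_lin_lin (g : OmQ Q) (x : V) : g⁻¹.lin (g.lin x) = x := by
  rw [← OmQ.lin_mul, inv_mul_cancel]; rfl

omit [Fintype F] [FiniteDimensional F V] hG in
lemma polar_inv_lin (g : OmQ Q) (x y : V) : polar Q x (g⁻¹.lin y) = polar Q (g.lin x) y := by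
  rw [← g.polar_lin, lin_inv_lin]

lemma conj_eo (g : OmQ Q) (u w : V) : g * eo Q u w * g⁻¹ = eo Q (g.lin u) (g.lin w) := by
  by_cases h : Q u = 0 ∧ polar Q u w = 0
  · apply OmQ.ext
    intro x
    rw [OmQ.lin_mul, OmQ.lin_mul, eo_lin h.1 h.2,
      eo_lin (by rw [g.Q_lin]; exact h.1) (by rw [g.polar_lin]; exact h.2)]
    simp only [map_add, map_sub, map_smul, polar_inv_lin, lin_inv_lin, g.Q_lin]
  · rw [eo_of_not h, eo_of_not (by rw [g.Q_lin, g.polar_lin]; exact h)]
    group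

lemma eo_add {u w w' : V} (huw : polar Q u w = 0) (huw' : polar Q u w' = 0) :
    eo Q u (w + w') = eo Q u w * eo Q u w' := by
  by_cases hu : Q u = 0
  · apply OmQ.ext
    intro x
    have huu : polar Q u u = 0 := by rw [polar_self, hu]; simp
    rw [OmQ.lin_mul, eo_lin hu huw, eo_lin hu huw', eo_lin hu (by rw [polar_add_right, huw, huw', add_zero])]
    simp only [polar_add_left, polar_add_right, polar_sub_right, polar_smul_right, huu, huw, huw',
      polar_comm Q w u, QuadraticMap.map_add (⇑Q), smul_eq_mul]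
    module
  · rw [eo_of_not (fun h => hu h.1), eo_of_not (fun h => hu h.1), eo_of_not (fun h => hu h.1), one_mul]

lemma eo_zero (u : V) : eo Q u 0 = 1 := by
  by_cases hu : Q u = 0
  · apply OmQ.ext
    intro x
    rw [eo_lin hu (by simp)]
    simp [OmQ.lin_one]
  · rw [eo_of_not (fun h => hu h.1)]

lemma eo_neg {u w : V} (huw : polar Q u w = 0) : eo Q u (-w) = (eo Q u w)⁻¹ := by
  rw [eq_inv_iff_mul_eq_one, ← eo_add (by rw [polar_neg_right, huw, neg_zero]) huw]
  simp [eo_zero]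

lemma eo_sub {u w w' : V} (huw : polar Q u w = 0) (huw' : polar Q u w' = 0) :
    eo Q u (w - w') = eo Q u w * (eo Q u w')⁻¹ := by
  rw [sub_eq_add_neg, eo_add huw (by rw [polar_neg_right, huw', neg_zero]), eo_neg huw']

lemma eo_comm {u w w' : V} (huw : polar Q u w = 0) (huw' : polar Q u w' = 0) :
    eo Q u w * eo Q u w' = eo Q u w' * eo Q u w := by
  rw [← eo_add huw huw', ← eo_add huw' huw, add_comm]

lemma eo_self_smul {u : V} (hu : Q u = 0) (a : F) : eo Q u (a • u) = 1 := by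
  have huu : polar Q u u = 0 := by rw [polar_self, hu]; simp
  apply OmQ.ext
  intro x
  rw [eo_lin hu (by rw [polar_smul_right, huu, smul_zero]), QuadraticMap.map_smul, hu, polar_smul_left]
  simp only [OmQ.lin_one, smul_eq_mul]
  module

lemma eo_add_self {u w : V} (hu : Q u = 0) (huw : polar Q u w = 0) (a : F) :
    eo Q u (w + a • u) = eo Q u w := by
  have huu : polar Q u u = 0 := by rw [polar_self, hu]; simp
  rw [eo_add huw (by rw [polar_smul_right, huu, smul_zero]), eo_self_smul hu, mul_one]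

lemma eo_smul_left (c : F) {u w : V} (hu : Q u = 0) (huw : polar Q u w = 0) :
    eo Q (c • u) w = eo Q u (c • w) := by
  apply OmQ.ext
  intro x
  rw [eo_lin (by rw [QuadraticMap.map_smul, hu, smul_zero]) (by rw [polar_smul_left, huw, smul_zero]),
    eo_lin hu (by rw [polar_smul_right, huw, smul_zero])]
  simp only [polar_smul_left, QuadraticMap.map_smul, smul_eq_mul]
  module

lemma eo_swap {u w : V} (hu : Q u = 0) (hw : Q w = 0) (huw : polar Q u w = 0) :
    eo Q u w = eo Q w (-u) := by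
  apply OmQ.ext
  intro x
  rw [eo_lin hu huw, eo_lin hw (by rw [polar_neg_right, polar_comm, huw, neg_zero]), hw,
    QuadraticMap.map_neg, hu, polar_neg_left]
  module

lemma eo_pow {u w : V} (huw : polar Q u w = 0) (k : ℕ) : (eo Q u w) ^ k = eo Q u (k • w) := by
  induction k with
  | zero => simp [eo_zero]
  | succ k ih =>
    rw [pow_succ, ih, succ_nsmul, eo_add (by rw [← Nat.cast_smul_eq_nsmul F, polar_smul_right, huw, smul_zero]) huw]

lemma eo_pow_char (p : ℕ) [CharP F p] {u w : V} (huw : polar Q u w = 0) : (eo Q u w) ^ p = 1 := by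
  rw [eo_pow huw, ← Nat.cast_smul_eq_nsmul F, CharP.cast_eq_zero, zero_smul, eo_zero]

/-! ### the centre -/

lemma mem_center_iff {g : OmQ Q} :
    g ∈ Subgroup.center (OmQ Q) ↔ ∃ c : F, ∀ x, g.lin x = c • x := by
  constructor
  · intro hg
    obtain ⟨s, f, hs, hf, hsf, -, -⟩ := exists_hyp_pair_perp hG.nd hG.five (0 : V)
    have h3 := le_finrank_perp2 Q s f
    have h7 := hG.dim
    obtain ⟨v, hv, hvq⟩ := exists_nonsingular_of_finrank hG.nd (perp2 Q s f) (by omega)
    rw [mem_perp2] at hv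
    obtain ⟨α, -, hα⟩ := scalar_of_commute hG.nd hs hf hsf hvq hv.1 hv.2 g.lin g.1.2 (by
      intro h hh
      have := Subgroup.mem_center_iff.1 hg ⟨h, hh⟩
      have h2 := congrArg (fun a : OmQ Q => a.lin) this
      exact h2.symm)
    exact ⟨α, hα⟩
  · rintro ⟨c, hc⟩
    rw [Subgroup.mem_center_iff]
    intro B
    apply OmQ.ext
    intro x
    rw [OmQ.lin_mul, OmQ.lin_mul, hc, hc, map_smul]

/-- the projective group -/
abbrev PG (Q : QuadraticForm F V) : Type _ := OmQ Q ⧸ Subgroup.center (OmQ Q)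

/-- the projection -/
def pm : OmQ Q →* PG Q := QuotientGroup.mk' _

omit [Fintype F] [FiniteDimensional F V] hG in
lemma pm_surj (r : PG Q) : ∃ g : OmQ Q, pm g = r := QuotientGroup.mk_surjective r

lemma pm_eq_one_iff {g : OmQ Q} : pm g = 1 ↔ ∃ c : F, ∀ x, g.lin x = c • x := by
  rw [← mem_center_iff]
  exact QuotientGroup.eq_one_iff g

lemma pm_eq_iff {g h : OmQ Q} : pm g = pm h ↔ ∃ c : F, ∀ x, g.lin x = c • h.lin x := by
  rw [← mul_inv_eq_one, ← map_inv, ← map_mul, pm_eq_one_iff]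
  constructor
  · rintro ⟨c, hc⟩
    refine ⟨c, fun x => ?_⟩
    have := hc (h.lin x)
    rwa [OmQ.lin_mul, inv_lin_lin] at this
  · rintro ⟨c, hc⟩
    refine ⟨c, fun x => ?_⟩
    rw [OmQ.lin_mul, hc, lin_inv_lin]

omit [Fintype F] [FiniteDimensional F V] hG in
lemma mem_map_pm {H : Subgroup (OmQ Q)} (hH : Subgroup.center (OmQ Q) ≤ H) {g : OmQ Q} :
    pm g ∈ H.map pm ↔ g ∈ H := by
  constructor
  · rintro ⟨h, hh, e⟩
    have : h⁻¹ * g ∈ Subgroup.center (OmQ Q) := QuotientGroup.eq.1 e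
    have h2 := mul_mem hh (hH this)
    rwa [mul_inv_cancel_left] at h2
  · intro h
    exact ⟨g, h, rfl⟩

/-! ### stabilisers of points and subspaces -/

omit [Fintype F] hG in
/-- the stabiliser in `Ω` of a subspace -/
def PU (Q : QuadraticForm F V) (U : Submodule F V) : Subgroup (OmQ Q) where
  carrier := {g | ∀ x, x ∈ U ↔ g.lin x ∈ U}
  mul_mem' := by
    intro a b ha hb x
    rw [OmQ.lin_mul, hb x, ha (b.lin x)]
  one_mem' := fun x => Iff.rfl
  inv_mem' := by
    intro a ha x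
    rw [ha (a⁻¹.lin x), lin_inv_lin]

omit [Fintype F] hG in
lemma mem_PU_of {U : Submodule F V} {g : OmQ Q} (h : ∀ x ∈ U, g.lin x ∈ U) : g ∈ PU Q U := by
  have h1 : U.map (g.lin : V →ₗ[F] V) ≤ U := by
    rintro _ ⟨x, hx, rfl⟩
    exact h x hx
  have h2 : U.map (g.lin : V →ₗ[F] V) = U := by
    apply Submodule.eq_of_le_of_finrank_eq h1
    exact LinearEquiv.finrank_map_eq g.lin U
  intro x
  refine ⟨h x, fun hx => ?_⟩
  rw [← h2] at hx
  obtain ⟨y, hy, e⟩ := hx
  have : y = x := g.lin.injective e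
  rwa [← this]

lemma center_le_PU (U : Submodule F V) : Subgroup.center (OmQ Q) ≤ PU Q U := by
  intro g hg
  obtain ⟨c, hc⟩ := mem_center_iff.1 hg
  apply mem_PU_of
  intro x hx
  rw [hc]
  exact U.smul_mem _ hx

/-- the stabiliser in `PΩ` of a subspace -/
def PUb (Q : QuadraticForm F V) (U : Submodule F V) : Subgroup (PG Q) := (PU Q U).map pm

lemma pm_mem_PUb {U : Submodule F V} {g : OmQ Q} : pm g ∈ PUb Q U ↔ g ∈ PU Q U :=
  mem_map_pm (center_le_PU U)

/-- the stabiliser in `PΩ` of the point spanned by `u` -/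
def PP (Q : QuadraticForm F V) (u : V) : Subgroup (PG Q) := PUb Q (Submodule.span F {u})

lemma pm_mem_PP {u : V} {g : OmQ Q} : pm g ∈ PP Q u ↔ ∃ c : F, g.lin u = c • u := by
  unfold PP
  rw [pm_mem_PUb]
  constructor
  · intro h
    have := (h u).1 (Submodule.mem_span_singleton_self u)
    obtain ⟨c, hc⟩ := Submodule.mem_span_singleton.1 this
    exact ⟨c, hc.symm⟩
  · rintro ⟨c, hc⟩
    apply mem_PU_of
    intro x hx
    obtain ⟨a, rfl⟩ := Submodule.mem_span_singleton.1 hx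
    rw [map_smul, hc]
    exact Submodule.smul_mem _ _ (Submodule.smul_mem _ _ (Submodule.mem_span_singleton_self u))

/-- the group `Q_u` in `PΩ` -/
def QQ (Q : QuadraticForm F V) [Good Q] (u : V) : Subgroup (PG Q) where
  carrier := {r | ∃ w, polar Q u w = 0 ∧ r = pm (eo Q u w)}
  mul_mem' := by
    rintro _ _ ⟨w, hw, rfl⟩ ⟨w', hw', rfl⟩
    exact ⟨w + w', by rw [polar_add_right, hw, hw', add_zero], by rw [eo_add hw hw', map_mul]⟩
  one_mem' := ⟨0, by simp, by rw [eo_zero, map_one]⟩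
  inv_mem' := by
    rintro _ ⟨w, hw, rfl⟩
    exact ⟨-w, by rw [polar_neg_right, hw, neg_zero], by rw [eo_neg hw, map_inv]⟩

lemma mem_QQ {u : V} {r : PG Q} : r ∈ QQ Q u ↔ ∃ w, polar Q u w = 0 ∧ r = pm (eo Q u w) := Iff.rfl

lemma pm_eo_mem_QQ {u w : V} (h : polar Q u w = 0) : pm (eo Q u w) ∈ QQ Q u := ⟨w, h, rfl⟩

lemma QQ_comm {u : V} {r s : PG Q} (hr : r ∈ QQ Q u) (hs : s ∈ QQ Q u) : r * s = s * r := by
  obtain ⟨w, hw, rfl⟩ := hr
  obtain ⟨w', hw', rfl⟩ := hs
  rw [← map_mul, ← map_mul, eo_comm hw hw']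

lemma QQ_isPGroup (p : ℕ) [CharP F p] (u : V) : IsPGroup p (QQ Q u) := by
  rintro ⟨_, w, hw, rfl⟩
  refine ⟨1, ?_⟩
  apply Subtype.ext
  change (pm (eo Q u w)) ^ (p ^ 1) = 1
  rw [pow_one, ← map_pow, eo_pow_char p hw, map_one]

lemma QQ_conj (g : OmQ Q) (u : V) {r : PG Q} (hr : r ∈ QQ Q u) :
    pm g * r * (pm g)⁻¹ ∈ QQ Q (g.lin u) := by
  obtain ⟨w, hw, rfl⟩ := hr
  refine ⟨g.lin w, by rw [g.polar_lin, hw], ?_⟩
  rw [← map_inv, ← map_mul, ← map_mul, conj_eo]

lemma QQ_smul {u : V} (hu : Q u = 0) {c : F} (hc : c ≠ 0) : QQ Q (c • u) = QQ Q u := by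
  ext r
  constructor
  · rintro ⟨w, hw, rfl⟩
    have hw' : polar Q u w = 0 := by
      rw [polar_smul_left, smul_eq_mul] at hw
      exact (mul_eq_zero.1 hw).resolve_left hc
    exact ⟨c • w, by rw [polar_smul_right, hw', smul_zero], by rw [eo_smul_left c hu hw']⟩
  · rintro ⟨w, hw, rfl⟩
    refine ⟨c⁻¹ • w, by rw [polar_smul_left, polar_smul_right, hw]; simp, ?_⟩
    rw [eo_smul_left c hu (by rw [polar_smul_right, hw, smul_zero]), smul_smul, mul_inv_cancel₀ hc,
      one_smul]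

lemma QQ_le_PP {u : V} (hu : Q u = 0) : QQ Q u ≤ PP Q u := by
  rintro _ ⟨w, hw, rfl⟩
  rw [pm_mem_PP]
  refine ⟨1, ?_⟩
  have huu : polar Q u u = 0 := by rw [polar_self, hu]; simp
  rw [eo_lin hu hw, huu, polar_comm Q w u, hw]
  simp

lemma QQ_normal {u : V} (hu : Q u = 0) (hu0 : u ≠ 0) {h r : PG Q} (hh : h ∈ PP Q u) (hr : r ∈ QQ Q u) :
    h * r * h⁻¹ ∈ QQ Q u := by
  obtain ⟨g, rfl⟩ := pm_surj h
  obtain ⟨c, hc⟩ := pm_mem_PP.1 hh
  have h1 := QQ_conj g u hr
  have hc0 : c ≠ 0 := by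
    rintro rfl
    rw [zero_smul] at hc
    exact hu0 (g.lin.map_eq_zero_iff.1 hc)
  rwa [hc, QQ_smul hu hc0] at h1

end Cfsg.Agent.Lib.Helper45.OAut
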