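import Mathlib
import Cfsg.Agent.Lib.Helper45.OAutA

set_option autoImplicit false
set_option linter.unusedSimpArgs false
set_option linter.unusedVariables false
set_option linter.unusedSectionVars false

/-! Automorphisms of `PΩ`: invariant subspaces of `Q_u`, eigenvectors of `p`-subgroups, fixed points. -/

namespace Cfsg.Agent.Lib.Helper45.OAut

open QuadraticMap Module
open Cfsg.Agent.Lib.Helper44 Cfsg.Agent.Lib.Helper5

variable {F V : Type*} [Field F] [AddCommGroup V] [Module F V]
variable [Fintype F] [FiniteDimensional F V]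
variable {Q : QuadraticForm F V} [hG : Good Q]

/-- a subspace on which the polar form is non-degenerate and which is big enough -/
structure Nice (Q : QuadraticForm F V) (T : Submodule F V) : Prop where
  sep : ∀ s ∈ T, ∀ x ∈ T, (∀ z ∈ T, polar Q s z = 0 → polar Q z x = 0) → ∃ c : F, x = c • s
  pair : ∀ s ∈ T, ∃ z ∈ T, ∃ z' ∈ T, polar Q s z = 0 ∧ polar Q s z' = 0 ∧ polar Q z z' ≠ 0

lemma nice_top : Nice Q (⊤ : Submodule F V) := by
  constructor
  · intro s _ x _ h
    exact eq_smul_of_perp_le hG.nd (fun z hz => by rw [polar_comm]; exact h z trivial hz)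
  · intro s _
    have h7 := hG.dim
    obtain ⟨a, ha, b, hb, hab⟩ := Cfsg.Agent.Lib.Helper13.O.exists_pair_ne hG.nd {s} (by simp; omega)
    rw [Cfsg.Agent.Lib.Helper13.O.mem_orth] at ha hb
    exact ⟨a, trivial, b, trivial, ha s (by simp), hb s (by simp), hab⟩

lemma nice_perp2 {u v : V} (hu : Q u = 0) (hv : Q v = 0) (huv : polar Q u v = 1) :
    Nice Q (perp2 Q u v) := by
  classical
  have huu : polar Q u u = 0 := by rw [polar_self, hu]; simp
  have hvv : polar Q v v = 0 := by rw [polar_self, hv]; simp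
  have hvu : polar Q v u = 1 := by rw [polar_comm]; exact huv
  constructor
  · intro s hs x hx h
    rw [mem_perp2] at hs hx
    apply eq_smul_of_perp_le hG.nd
    intro y hy
    have h1 := h (y - polar Q v y • u - polar Q u y • v) (by
      rw [mem_perp2]
      constructor
      · simp only [polar_sub_right, polar_smul_right, huu, huv, smul_eq_mul]; ring
      · simp only [polar_sub_right, polar_smul_right, hvv, hvu, smul_eq_mul]; ring) (by
      simp only [polar_sub_right, polar_smul_right, polar_comm Q s u, polar_comm Q s v, hs.1, hs.2,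
        hy, smul_eq_mul]; ring)
    simp only [polar_sub_left, polar_smul_left, hx.1, hx.2, smul_eq_mul] at h1
    rw [polar_comm]
    simpa using h1
  · intro s _
    have h7 := hG.dim
    have hc : ({u, v, s} : Finset V).card ≤ 3 := Finset.card_le_three
    obtain ⟨a, ha, b, hb, hab⟩ := Cfsg.Agent.Lib.Helper13.O.exists_pair_ne hG.nd {u, v, s} (by omega)
    rw [Cfsg.Agent.Lib.Helper13.O.mem_orth] at ha hb
    exact ⟨a, mem_perp2.2 ⟨ha u (by simp), ha v (by simp)⟩, b,
      mem_perp2.2 ⟨hb u (by simp), hb v (by simp)⟩, ha s (by simp), hb s (by simp), hab⟩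

/-- **Lemma A**: the subspaces invariant under the Eichler transformations with centre `s`. -/
theorem inv_sub {T : Submodule F V} (hT : Nice Q T) {s : V} (hsT : s ∈ T) (hs : Q s = 0)
    (U : Submodule F V) (hUT : U ≤ T)
    (hinv : ∀ z ∈ T, polar Q s z = 0 → ∀ x ∈ U, (eo Q s z).lin x ∈ U) :
    U = ⊥ ∨ U = T ∨ (s ∈ U ∧ ∀ x ∈ U, polar Q s x = 0) := by
  by_cases h : ∀ x ∈ U, polar Q s x = 0
  · by_cases hb : U = ⊥
    · exact Or.inl hb
    right; right
    refine ⟨?_, h⟩
    obtain ⟨x, hx, hx0⟩ := Submodule.exists_mem_ne_zero_of_ne_bot hb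
    by_cases hxs : ∃ c : F, x = c • s
    · obtain ⟨c, hc⟩ := hxs
      have hc0 : c ≠ 0 := by
        rintro rfl
        rw [zero_smul] at hc
        exact hx0 hc
      have : s = c⁻¹ • x := by rw [hc, smul_smul, inv_mul_cancel₀ hc0, one_smul]
      rw [this]
      exact U.smul_mem _ hx
    · have h1 : ¬ ∀ z ∈ T, polar Q s z = 0 → polar Q z x = 0 := fun hh => hxs (hT.sep s hsT x (hUT hx) hh)
      push Not at h1
      obtain ⟨z, hzT, hsz, hzx⟩ := h1
      have h2 := hinv z hzT hsz x hx
      rw [eo_lin hs hsz, h x hx] at h2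
      have h3 : polar Q z x • s ∈ U := by
        have := U.sub_mem h2 hx
        have e : x + polar Q z x • s - (0 : F) • z - (Q z * 0) • s - x = polar Q z x • s := by module
        rwa [e] at this
      have : s = (polar Q z x)⁻¹ • (polar Q z x • s) := by
        rw [smul_smul, inv_mul_cancel₀ hzx, one_smul]
      rw [this]
      exact U.smul_mem _ h3
  · push Not at h
    obtain ⟨x, hx, hc⟩ := h
    right; left
    set c := polar Q s x with hcdef
    have hd : ∀ z ∈ T, polar Q s z = 0 → polar Q z x • s - c • z - (Q z * c) • s ∈ U := by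
      intro z hzT hsz
      have h2 := U.sub_mem (hinv z hzT hsz x hx) hx
      rw [eo_lin hs hsz] at h2
      have e : x + polar Q z x • s - polar Q s x • z - (Q z * polar Q s x) • s - x
          = polar Q z x • s - c • z - (Q z * c) • s := by rw [hcdef]; module
      rwa [e] at h2
    have hsU : s ∈ U := by
      obtain ⟨z, hz, z', hz', h1, h2, h3⟩ := hT.pair s hsT
      have e1 := hd z hz h1
      have e2 := hd z' hz' h2
      have e3 := hd (z + z') (T.add_mem hz hz') (by rw [polar_add_right, h1, h2, add_zero])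
      have e4 := U.sub_mem (U.sub_mem e3 e1) e2
      have e : polar Q (z + z') x • s - c • (z + z') - (Q (z + z') * c) • s
          - (polar Q z x • s - c • z - (Q z * c) • s) - (polar Q z' x • s - c • z' - (Q z' * c) • s)
          = (-(polar Q z z' * c)) • s := by
        rw [polar_add_left, QuadraticMap.map_add (⇑Q)]
        module
      rw [e] at e4
      have : s = (-(polar Q z z' * c))⁻¹ • ((-(polar Q z z' * c)) • s) := by
        rw [smul_smul, inv_mul_cancel₀ (neg_ne_zero.2 (mul_ne_zero h3 hc)), one_smul]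
      rw [this]
      exact U.smul_mem _ e4
    have hz : ∀ z ∈ T, polar Q s z = 0 → z ∈ U := by
      intro z hzT hsz
      have e1 := hd z hzT hsz
      have e2 : c • z ∈ U := by
        have := U.sub_mem (U.smul_mem (polar Q z x - Q z * c) hsU) e1
        have e : (polar Q z x - Q z * c) • s - (polar Q z x • s - c • z - (Q z * c) • s) = c • z := by
          module
        rwa [e] at this
      have : z = c⁻¹ • (c • z) := by rw [smul_smul, inv_mul_cancel₀ hc, one_smul]
      rw [this]
      exact U.smul_mem _ e2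
    apply le_antisymm hUT
    intro y hy
    have h1 := hz (y - (polar Q s y * c⁻¹) • x) (T.sub_mem hy (T.smul_mem _ (hUT hx))) (by
      rw [polar_sub_right, polar_smul_right, smul_eq_mul, ← hcdef, mul_assoc, inv_mul_cancel₀ hc]
      ring)
    have := U.add_mem h1 (U.smul_mem (polar Q s y * c⁻¹) hx)
    rwa [sub_add_cancel] at this

/-- irreducibility -/
theorem irred {T : Submodule F V} (hT : Nice Q T) {e f : V} (he : e ∈ T) (hf : f ∈ T)
    (hQe : Q e = 0) (hQf : Q f = 0) (hef : polar Q e f ≠ 0)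
    (U : Submodule F V) (hUT : U ≤ T) (hU : U ≠ ⊥)
    (hinv : ∀ s ∈ T, ∀ z ∈ T, Q s = 0 → polar Q s z = 0 → ∀ x ∈ U, (eo Q s z).lin x ∈ U) : U = T := by
  rcases inv_sub hT he hQe U hUT (fun z hz h => hinv e he z hz hQe h) with h | h | h
  · exact absurd h hU
  · exact h
  rcases inv_sub hT hf hQf U hUT (fun z hz h => hinv f hf z hz hQf h) with h' | h' | h'
  · exact absurd h' hU
  · exact h'
  exact absurd (h.2 f h'.1) hef

/-! ### eigenvectors -/

omit [Fintype F] [FiniteDimensional F V] hG in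
/-- the common eigenvectors of a subgroup of `PΩ` -/
def Eig (R : Subgroup (PG Q)) : Set V := {x | ∀ g : OmQ Q, pm g ∈ R → ∃ c : F, g.lin x = c • x}

omit [Fintype F] [FiniteDimensional F V] hG in
lemma lin_pow_eig {g : OmQ Q} {x : V} {c : F} (h : g.lin x = c • x) (j : ℕ) :
    (g ^ j).lin x = c ^ j • x := by
  induction j with
  | zero => simp [OmQ.lin_one]
  | succ j ih => rw [pow_succ, OmQ.lin_mul, h, map_smul, ih, smul_smul, pow_succ, mul_comm]

lemma eig_scalar (p : ℕ) [Fact p.Prime] [CharP F p] {R : Subgroup (PG Q)} (hR : IsPGroup p R)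
    {g : OmQ Q} (hg : pm g ∈ R) : ∃ c : F, ∀ x ∈ Submodule.span F (Eig R), g.lin x = c • x := by
  obtain ⟨k, hk⟩ := hR ⟨pm g, hg⟩
  have hk' : pm (g ^ (p ^ k)) = 1 := by
    rw [map_pow]
    exact congrArg Subtype.val hk
  obtain ⟨ε, hε⟩ := pm_eq_one_iff.1 hk'
  have key : ∃ c : F, ∀ x ∈ Eig R, g.lin x = c • x := by
    by_cases hne : ∃ x0 ∈ Eig R, x0 ≠ 0
    · obtain ⟨x0, hx0, hx00⟩ := hne
      obtain ⟨c0, hc0⟩ := hx0 g hg
      refine ⟨c0, fun x hx => ?_⟩
      by_cases hx1 : x = 0
      · rw [hx1]; simp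
      obtain ⟨c, hc⟩ := hx g hg
      have e0 : c0 ^ (p ^ k) = ε := by
        have := lin_pow_eig hc0 (p ^ k)
        rw [hε] at this
        exact (smul_left_injective F hx00 this).symm
      have e1 : c ^ (p ^ k) = ε := by
        have := lin_pow_eig hc (p ^ k)
        rw [hε] at this
        exact (smul_left_injective F hx1 this).symm
      have e2 : (c - c0) ^ (p ^ k) = 0 := by
        rw [sub_pow_char_pow, e0, e1, sub_self]
      have e3 : c = c0 := sub_eq_zero.1 (pow_eq_zero_iff (pow_ne_zero _ (Fact.out : p.Prime).ne_zero) |>.1 e2)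
      rw [hc, e3]
    · push Not at hne
      refine ⟨0, fun x hx => ?_⟩
      rw [hne x hx]; simp
  obtain ⟨c, hc⟩ := key
  refine ⟨c, fun x hx => ?_⟩
  induction hx using Submodule.span_induction with
  | mem x hx => exact hc x hx
  | zero => simp
  | add x y _ _ hx hy => rw [map_add, hx, hy, smul_add]
  | smul a x _ hx => rw [map_smul, hx, smul_comm]

lemma mem_Eig_of_span (p : ℕ) [Fact p.Prime] [CharP F p] {R : Subgroup (PG Q)} (hR : IsPGroup p R)
    {x : V} (hx : x ∈ Submodule.span F (Eig R)) : x ∈ Eig R := by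
  intro g hg
  obtain ⟨c, hc⟩ := eig_scalar p hR hg
  exact ⟨c, hc x hx⟩

/-- **Lemma C**: a `p`-subgroup whose eigenvectors span the space is trivial. -/
theorem eq_bot_of_span (p : ℕ) [Fact p.Prime] [CharP F p] {R : Subgroup (PG Q)} (hR : IsPGroup p R)
    (h : Submodule.span F (Eig R) = ⊤) : R = ⊥ := by
  rw [eq_bot_iff]
  intro r hr
  obtain ⟨g, rfl⟩ := pm_surj r
  obtain ⟨c, hc⟩ := eig_scalar p hR hr
  rw [Subgroup.mem_bot, pm_eq_one_iff]
  exact ⟨c, fun x => hc x (by rw [h]; trivial)⟩

omit [Fintype F] [FiniteDimensional F V] hG in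
lemma Eig_map {R : Subgroup (PG Q)} {h : OmQ Q} (hh : ∀ r ∈ R, (pm h)⁻¹ * r * pm h ∈ R) {x : V}
    (hx : x ∈ Eig R) : h.lin x ∈ Eig R := by
  intro g hg
  have h1 := hh _ hg
  rw [← map_inv, ← map_mul, ← map_mul] at h1
  obtain ⟨c, hc⟩ := hx _ h1
  refine ⟨c, ?_⟩
  rw [OmQ.lin_mul, OmQ.lin_mul] at hc
  have := congrArg h.lin hc
  rwa [lin_inv_lin, map_smul] at this

omit [Fintype F] [FiniteDimensional F V] hG in
lemma span_Eig_map {R : Subgroup (PG Q)} {h : OmQ Q} (hh : ∀ r ∈ R, (pm h)⁻¹ * r * pm h ∈ R) {x : V}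
    (hx : x ∈ Submodule.span F (Eig R)) : h.lin x ∈ Submodule.span F (Eig R) := by
  induction hx using Submodule.span_induction with
  | mem x hx => exact Submodule.subset_span (Eig_map hh hx)
  | zero => simp
  | add x y _ _ hx hy => rw [map_add]; exact Submodule.add_mem _ hx hy
  | smul a x _ hx => rw [map_smul]; exact Submodule.smul_mem _ _ hx

lemma mem_Eig_iff_le_PP {R : Subgroup (PG Q)} {x : V} : x ∈ Eig R ↔ R ≤ PP Q x := by
  constructor
  · intro h r hr
    obtain ⟨g, rfl⟩ := pm_surj r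
    exact pm_mem_PP.2 (h g hr)
  · intro h g hg
    exact pm_mem_PP.1 (h hg)

/-! ### the action on the singular points -/

/-- the permutation representation of `PΩ` on the singular points -/
noncomputable def permHom (Q : QuadraticForm F V) [Good Q] : PG Q →* Equiv.Perm (SingPt Q) :=
  QuotientGroup.lift _ (MulAction.toPermHom (OmQ Q) (SingPt Q)) (by
    intro g hg
    obtain ⟨c, hc⟩ := mem_center_iff.1 hg
    ext x
    induction x using SingPt.ind with | h v hv hq => ?_
    rw [MulAction.toPermHom_apply, MulAction.toPerm_apply, OmQ.smul_mk, Equiv.Perm.coe_one]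
    change SingPt.mk Q (g.lin v) _ _ = SingPt.mk Q v hv hq
    rw [SingPt.mk_eq_mk_iff]
    exact ⟨c, (hc v).symm⟩)

noncomputable instance pgAct : MulAction (PG Q) (SingPt Q) := MulAction.compHom _ (permHom Q)

lemma pm_smul (g : OmQ Q) (x : SingPt Q) : pm g • x = g • x := rfl

lemma pm_smul_mk_eq_iff (g : OmQ Q) {v : V} (hv : v ≠ 0) (hq : Q v = 0) :
    pm g • SingPt.mk Q v hv hq = SingPt.mk Q v hv hq ↔ pm g ∈ PP Q v := by
  rw [pm_smul, OmQ.smul_mk, SingPt.mk_eq_mk_iff, pm_mem_PP]
  constructor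
  · rintro ⟨a, ha⟩
    exact ⟨a, ha.symm⟩
  · rintro ⟨a, ha⟩
    exact ⟨a, ha.symm⟩

lemma stabilizer_mk {v : V} (hv : v ≠ 0) (hq : Q v = 0) :
    MulAction.stabilizer (PG Q) (SingPt.mk Q v hv hq) = PP Q v := by
  ext r
  obtain ⟨g, rfl⟩ := pm_surj r
  rw [MulAction.mem_stabilizer_iff, pm_smul_mk_eq_iff]

instance finite_singPt : Finite (SingPt Q) := by
  have : Finite V := Module.finite_of_finite F
  have : Finite (Projectivization F V) := Quotient.finite _
  exact Subtype.finite

/-- a singular vector spanning a line stabilised by `Q_u` is a multiple of `u` -/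
lemma eq_smul_of_QQ_le {u y : V} (hu : Q u = 0) (hy0 : y ≠ 0) (h : QQ Q u ≤ PP Q y) :
    ∃ c : F, u = c • y := by
  have h7 := hG.dim
  rcases inv_sub nice_top (s := u) trivial hu (Submodule.span F {y}) le_top (by
    intro z _ hz x hx
    obtain ⟨a, rfl⟩ := Submodule.mem_span_singleton.1 hx
    obtain ⟨c, hc⟩ := pm_mem_PP.1 (h (pm_eo_mem_QQ hz))
    rw [map_smul, hc]
    exact Submodule.smul_mem _ _ (Submodule.smul_mem _ _ (Submodule.mem_span_singleton_self y))) with h1 | h1 | h1
  · rw [Submodule.span_singleton_eq_bot] at h1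
    exact absurd h1 hy0
  · have := finrank_span_singleton (K := F) hy0
    rw [h1, finrank_top] at this
    omega
  · obtain ⟨c, hc⟩ := Submodule.mem_span_singleton.1 h1.1
    exact ⟨c, hc.symm⟩

theorem card_singPt (p : ℕ) [Fact p.Prime] [CharP F p] : Nat.card (SingPt Q) ≡ 1 [MOD p] := by
  obtain ⟨u, -, hu0, hu⟩ := exists_singular_of_finrank Q ⊤ (by rw [finrank_top]; have := hG.dim; omega)
  have h1 := (QQ_isPGroup (Q := Q) p u).card_modEq_card_fixedPoints (SingPt Q)
  have h2 : MulAction.fixedPoints (QQ Q u) (SingPt Q) = {SingPt.mk Q u hu0 hu} := by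
    ext x
    induction x using SingPt.ind with | h y hy hq => ?_
    rw [Set.mem_singleton_iff, MulAction.mem_fixedPoints]
    constructor
    · intro h
      have h3 : QQ Q u ≤ PP Q y := by
        intro r hr
        obtain ⟨g, rfl⟩ := pm_surj r
        exact (pm_smul_mk_eq_iff g hy hq).1 (h ⟨pm g, hr⟩)
      obtain ⟨c, hc⟩ := eq_smul_of_QQ_le hu hy h3
      rw [eq_comm, SingPt.mk_eq_mk_iff]
      exact ⟨c, hc.symm⟩
    · intro h r
      rw [h]
      obtain ⟨r, hr⟩ := r
      obtain ⟨g, rfl⟩ := pm_surj r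
      exact (pm_smul_mk_eq_iff g hu0 hu).2 (QQ_le_PP hu hr)
  rw [h2] at h1
  simpa using h1

/-- **Lemma B**: a `p`-subgroup fixes a singular point. -/
theorem exists_fixed (p : ℕ) [Fact p.Prime] [CharP F p] {R : Subgroup (PG Q)} (hR : IsPGroup p R) :
    ∃ y, y ≠ 0 ∧ Q y = 0 ∧ R ≤ PP Q y := by
  have h1 := hR.card_modEq_card_fixedPoints (SingPt Q)
  have h2 := (card_singPt (Q := Q) p).symm.trans h1
  have h3 : Nat.card (MulAction.fixedPoints R (SingPt Q)) ≠ 0 := by
    intro h0
    rw [h0] at h2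
    have := (Nat.modEq_zero_iff_dvd.1 h2)
    exact (Fact.out : p.Prime).one_lt.ne' (Nat.dvd_one.1 this)
  have h4 : Nonempty (MulAction.fixedPoints R (SingPt Q)) := by
    by_contra hcon
    rw [not_nonempty_iff] at hcon
    exact h3 Nat.card_of_isEmpty
  obtain ⟨x, hx⟩ := h4
  induction x using SingPt.ind with | h y hy hq => ?_
  refine ⟨y, hy, hq, fun r hr => ?_⟩
  obtain ⟨g, rfl⟩ := pm_surj r
  exact (pm_smul_mk_eq_iff g hy hq).1 (hx ⟨pm g, hr⟩)

end Cfsg.Agent.Lib.Helper45.OAut
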