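import Mathlib
import Cfsg.Agent.Lib.Helper45.OAutB

set_option autoImplicit false
set_option linter.unusedSimpArgs false
set_option linter.unusedVariables false
set_option linter.unusedSectionVars false

/-! Automorphisms of `PΩ`: `Q_u` is the largest normal `p`-subgroup of the point stabiliser. -/

namespace Cfsg.Agent.Lib.Helper45.OAut

open QuadraticMap Module
open Cfsg.Agent.Lib.Helper44 Cfsg.Agent.Lib.Helper5

variable {F V : Type*} [Field F] [AddCommGroup V] [Module F V]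

/-- a hyperbolic pair -/
structure HP (Q : QuadraticForm F V) (u v : V) : Prop where
  Qu : Q u = 0
  Qv : Q v = 0
  uv : polar Q u v = 1

namespace HP
variable {Q : QuadraticForm F V} {u v : V} (h : HP Q u v)
include h
lemma vu : polar Q v u = 1 := by rw [polar_comm]; exact h.uv
lemma uu : polar Q u u = 0 := by rw [polar_self, h.Qu]; simp
lemma vv : polar Q v v = 0 := by rw [polar_self, h.Qv]; simp
lemma symm : HP Q v u := ⟨h.Qv, h.Qu, h.vu⟩
lemma u0 : u ≠ 0 := by
  rintro rfl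
  have := h.uv
  simp at this
lemma v0 : v ≠ 0 := h.symm.u0
/-- the projection to `⟨u,v⟩^⊥` -/
lemma proj_mem (x : V) : x - polar Q v x • u - polar Q u x • v ∈ perp2 Q u v := by
  rw [mem_perp2]
  constructor
  · simp only [polar_sub_right, polar_smul_right, h.uu, h.uv, smul_eq_mul]; ring
  · simp only [polar_sub_right, polar_smul_right, h.vv, h.vu, smul_eq_mul]; ring
end HP

variable [Fintype F] [FiniteDimensional F V]
variable {Q : QuadraticForm F V} [hG : Good Q]

lemma exists_HP {u : V} (hu0 : u ≠ 0) (hu : Q u = 0) : ∃ v, HP Q u v := by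
  obtain ⟨f, hf, hef⟩ := exists_hyp_partner hG.nd hu0 hu
  exact ⟨f, hu, hf, hef⟩

lemma exists_HP' : ∃ u v : V, HP Q u v := by
  obtain ⟨u, -, hu0, hu⟩ := exists_singular_of_finrank Q ⊤ (by rw [finrank_top]; have := hG.dim; omega)
  obtain ⟨v, hv⟩ := exists_HP hu0 hu
  exact ⟨u, v, hv⟩

omit hG in
lemma exists_hyp_in {T : Submodule F V} (hT : Nice Q T) (h3 : 3 ≤ finrank F T) :
    ∃ e ∈ T, ∃ f ∈ T, HP Q e f := by
  obtain ⟨e, heT, he0, he⟩ := exists_singular_of_finrank Q T h3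
  have h1 : ¬ ∀ z ∈ T, polar Q (0 : V) z = 0 → polar Q z e = 0 := by
    intro hh
    obtain ⟨c, hc⟩ := hT.sep 0 T.zero_mem e heT hh
    rw [smul_zero] at hc
    exact he0 hc
  push Not at h1
  obtain ⟨z, hzT, -, hze⟩ := h1
  set b := polar Q z e with hb
  have hez : polar Q e z = b := by rw [polar_comm]
  have hee : polar Q e e = 0 := by rw [polar_self, he]; simp
  refine ⟨e, heT, b⁻¹ • z + (-(b⁻¹ * b⁻¹ * Q z)) • e,
    T.add_mem (T.smul_mem _ hzT) (T.smul_mem _ heT), he, ?_, ?_⟩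
  · rw [Q_add_smul, he, QuadraticMap.map_smul, polar_smul_left, ← hb, smul_eq_mul, smul_eq_mul]
    field_simp
    ring
  · rw [polar_add_right, polar_smul_right, polar_smul_right, hee, hez, smul_eq_mul,
      inv_mul_cancel₀ hze]
    simp

lemma finrank_perp2_ge (u v : V) : 5 ≤ finrank F (perp2 Q u v) := by
  have := le_finrank_perp2 Q u v
  have := hG.dim
  omega

/-- `Q_u` is transitive on the points not orthogonal to `u` -/
lemma eo_move {u v y : V} (h : HP Q u v) (hy : Q y = 0) (huy : polar Q u y = 1) :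
    (eo Q u (v - y)).lin v = y := by
  rw [eo_lin h.Qu (by rw [polar_sub_right, h.uv, huy, sub_self]), h.uv, polar_sub_left, h.vv]
  have : Q (v - y) = - polar Q v y := by
    rw [sub_eq_add_neg, QuadraticMap.map_add (⇑Q), QuadraticMap.map_neg, h.Qv, hy, polar_neg_right]
    ring
  rw [this, polar_comm Q y v]
  module

lemma eo_perp2 {u v s z x : V} (hs : s ∈ perp2 Q u v) (hz : z ∈ perp2 Q u v) (hQs : Q s = 0)
    (hsz : polar Q s z = 0) (hx : x ∈ perp2 Q u v) : (eo Q s z).lin x ∈ perp2 Q u v := by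
  rw [eo_lin hQs hsz]
  exact Submodule.sub_mem _ (Submodule.sub_mem _ (Submodule.add_mem _ hx (Submodule.smul_mem _ _ hs))
    (Submodule.smul_mem _ _ hz)) (Submodule.smul_mem _ _ hs)

lemma eo_fix_of_perp {s z x : V} (hQs : Q s = 0) (hsz : polar Q s z = 0) (h1 : polar Q s x = 0)
    (h2 : polar Q z x = 0) : (eo Q s z).lin x = x := by
  rw [eo_lin hQs hsz, h1, h2]; simp

lemma pm_eo_mem_PP_of_perp {s z x : V} (hQs : Q s = 0) (hsz : polar Q s z = 0) (h1 : polar Q s x = 0)
    (h2 : polar Q z x = 0) : pm (eo Q s z) ∈ PP Q x :=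
  pm_mem_PP.2 ⟨1, by rw [eo_fix_of_perp hQs hsz h1 h2, one_smul]⟩

/-- a `p`-group fixing `u`, `v` and normalised by the Eichler transformations of `⟨u,v⟩^⊥` is trivial -/
theorem levi_core (p : ℕ) [Fact p.Prime] [CharP F p] {u v : V} (h : HP Q u v)
    {N : Subgroup (PG Q)} (hN : IsPGroup p N) (hNu : N ≤ PP Q u) (hNv : N ≤ PP Q v)
    (hnorm : ∀ s ∈ perp2 Q u v, ∀ z ∈ perp2 Q u v, Q s = 0 → polar Q s z = 0 →
      ∀ r ∈ N, (pm (eo Q s z))⁻¹ * r * pm (eo Q s z) ∈ N) : N = ⊥ := by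
  classical
  have hp := (Fact.out : p.Prime)
  -- a third fixed point
  have h1 := hN.card_modEq_card_fixedPoints (SingPt Q)
  have h2 := (card_singPt (Q := Q) p).symm.trans h1
  have hxu : SingPt.mk Q u h.u0 h.Qu ∈ MulAction.fixedPoints N (SingPt Q) := by
    rintro ⟨r, hr⟩
    obtain ⟨g, rfl⟩ := pm_surj r
    exact (pm_smul_mk_eq_iff g h.u0 h.Qu).2 (hNu hr)
  have hxv : SingPt.mk Q v h.v0 h.Qv ∈ MulAction.fixedPoints N (SingPt Q) := by
    rintro ⟨r, hr⟩
    obtain ⟨g, rfl⟩ := pm_surj r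
    exact (pm_smul_mk_eq_iff g h.v0 h.Qv).2 (hNv hr)
  have hne : SingPt.mk Q u h.u0 h.Qu ≠ SingPt.mk Q v h.v0 h.Qv := by
    intro e
    rw [SingPt.mk_eq_mk_iff] at e
    obtain ⟨a, ha⟩ := e
    have := h.uv
    rw [← ha, polar_smul_left, h.vv] at this
    simp at this
  have h3 : ∃ x ∈ MulAction.fixedPoints N (SingPt Q), x ≠ SingPt.mk Q u h.u0 h.Qu ∧
      x ≠ SingPt.mk Q v h.v0 h.Qv := by
    by_contra hcon
    push Not at hcon
    have e : MulAction.fixedPoints N (SingPt Q)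
        = {SingPt.mk Q u h.u0 h.Qu, SingPt.mk Q v h.v0 h.Qv} := by
      ext x
      simp only [Set.mem_insert_iff, Set.mem_singleton_iff]
      constructor
      · intro hx
        by_cases hxx : x = SingPt.mk Q u h.u0 h.Qu
        · exact Or.inl hxx
        · exact Or.inr (hcon x hx hxx)
      · rintro (rfl | rfl)
        · exact hxu
        · exact hxv
    rw [e, Nat.card_coe_set_eq, Set.ncard_pair hne] at h2
    have h4 : p ∣ 2 - 1 := (Nat.modEq_iff_dvd' (by norm_num)).1 h2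
    exact hp.one_lt.ne' (Nat.dvd_one.1 (by simpa using h4))
  obtain ⟨x, hx, hx1, hx2⟩ := h3
  induction x using SingPt.ind with | h y hy hq => ?_
  have hyE : y ∈ Eig N := by
    rw [mem_Eig_iff_le_PP]
    intro r hr
    obtain ⟨g, rfl⟩ := pm_surj r
    exact (pm_smul_mk_eq_iff g hy hq).1 (hx ⟨pm g, hr⟩)
  have huE : u ∈ Eig N := mem_Eig_iff_le_PP.2 hNu
  have hvE : v ∈ Eig N := mem_Eig_iff_le_PP.2 hNv
  set S := Submodule.span F (Eig N) with hS
  set w := y - polar Q v y • u - polar Q u y • v with hw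
  have hwS : w ∈ S := S.sub_mem (S.sub_mem (Submodule.subset_span hyE)
    (S.smul_mem _ (Submodule.subset_span huE))) (S.smul_mem _ (Submodule.subset_span hvE))
  have hwW : w ∈ perp2 Q u v := h.proj_mem y
  have hw0 : w ≠ 0 := by
    intro hw0
    have e : ∃ a b : F, y = a • u + b • v := by
      refine ⟨polar Q v y, polar Q u y, ?_⟩
      have : y = w + polar Q v y • u + polar Q u y • v := by rw [hw]; abel
      rw [hw0, zero_add] at this
      exact this
    obtain ⟨a, b, e⟩ := e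
    have e2 : a * b = 0 := by
      have := hq
      rw [e, Q_add_smul, QuadraticMap.map_smul, h.Qu, h.Qv, polar_smul_left, h.uv] at this
      simp only [smul_eq_mul, mul_zero, zero_add, mul_one, add_zero] at this
      linear_combination this
    rcases mul_eq_zero.1 e2 with e3 | e3
    · apply hx2
      rw [SingPt.mk_eq_mk_iff]
      refine ⟨b, ?_⟩
      rw [e, e3]; simp
    · apply hx1
      rw [SingPt.mk_eq_mk_iff]
      refine ⟨a, ?_⟩
      rw [e, e3]; simp
  obtain ⟨e, he, f, hf, hef⟩ := exists_hyp_in (nice_perp2 h.Qu h.Qv h.uv) (by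
    have := finrank_perp2_ge (Q := Q) u v; omega)
  have hirr := irred (nice_perp2 h.Qu h.Qv h.uv) he hf hef.Qu hef.Qv (by rw [hef.uv]; exact one_ne_zero)
    (S ⊓ perp2 Q u v) inf_le_right (by
      intro hb
      have : w ∈ S ⊓ perp2 Q u v := ⟨hwS, hwW⟩
      rw [hb] at this
      exact hw0 this) (by
      intro s hs z hz hQs hsz x hx
      exact ⟨span_Eig_map (hnorm s hs z hz hQs hsz) hx.1, eo_perp2 hs hz hQs hsz hx.2⟩)
  apply eq_bot_of_span p hN
  rw [eq_top_iff]
  intro x _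
  have h5 : x - polar Q v x • u - polar Q u x • v ∈ S := by
    have := h.proj_mem x
    rw [← hirr] at this
    exact this.1
  have h6 := S.add_mem (S.add_mem h5 (S.smul_mem (polar Q v x) (Submodule.subset_span huE)))
    (S.smul_mem (polar Q u x) (Submodule.subset_span hvE))
  have e : x - polar Q v x • u - polar Q u x • v + polar Q v x • u + polar Q u x • v = x := by abel
  rwa [e] at h6

omit [Fintype F] [FiniteDimensional F V] hG in
lemma conj_mem_sup {G : Type*} [Group G] {A B : Subgroup G} {h : G}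
    (hA : ∀ r ∈ A, h * r * h⁻¹ ∈ A) (hB : ∀ r ∈ B, h * r * h⁻¹ ∈ B) {r : G} (hr : r ∈ A ⊔ B) :
    h * r * h⁻¹ ∈ A ⊔ B := by
  have h1 : (A ⊔ B).map (MulAut.conj h).toMonoidHom ≤ A ⊔ B := by
    rw [Subgroup.map_sup]
    apply sup_le_sup
    · rintro _ ⟨a, ha, rfl⟩
      exact hA a ha
    · rintro _ ⟨a, ha, rfl⟩
      exact hB a ha
  exact h1 ⟨r, hr, rfl⟩

/-- **Lemma E**: every `p`-subgroup of `P_u` normalised by `P_u` lies in `Q_u`. -/
theorem le_QQ_of_normal (p : ℕ) [Fact p.Prime] [CharP F p] {u : V} (hu0 : u ≠ 0) (hu : Q u = 0)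
    {N : Subgroup (PG Q)} (hN : IsPGroup p N) (hNu : N ≤ PP Q u)
    (hnorm : ∀ h ∈ PP Q u, ∀ r ∈ N, h * r * h⁻¹ ∈ N) : N ≤ QQ Q u := by
  obtain ⟨v, h⟩ := exists_HP hu0 hu
  have hsup : IsPGroup p (N ⊔ QQ Q u : Subgroup (PG Q)) := by
    apply IsPGroup.to_sup_of_normal_right' hN (QQ_isPGroup p u)
    intro r hr
    rw [Subgroup.mem_normalizer_iff]
    intro x
    constructor
    · intro hx
      exact QQ_normal hu hu0 (hNu hr) hx
    · intro hx
      have := QQ_normal hu hu0 (inv_mem (hNu hr)) hx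
      simpa [mul_assoc] using this
  have hsupu : N ⊔ QQ Q u ≤ PP Q u := sup_le hNu (QQ_le_PP hu)
  have hcore : (N ⊔ QQ Q u) ⊓ PP Q v = ⊥ := by
    apply levi_core p h (hsup.to_le inf_le_left) (inf_le_left.trans hsupu) inf_le_right
    intro s hs z hz hQs hsz r hr
    rw [mem_perp2] at hs hz
    have h1 : pm (eo Q s z) ∈ PP Q u :=
      pm_eo_mem_PP_of_perp hQs hsz (by rw [polar_comm]; exact hs.1) (by rw [polar_comm]; exact hz.1)
    have h2 : pm (eo Q s z) ∈ PP Q v :=
      pm_eo_mem_PP_of_perp hQs hsz (by rw [polar_comm]; exact hs.2) (by rw [polar_comm]; exact hz.2)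
    rw [Subgroup.mem_inf] at hr ⊢
    constructor
    · have := conj_mem_sup (h := (pm (eo Q s z))⁻¹) (fun r hr => hnorm _ (inv_mem h1) r hr)
        (fun r hr => QQ_normal hu hu0 (inv_mem h1) hr) hr.1
      simpa using this
    · exact mul_mem (mul_mem (inv_mem h2) hr.2) h2
  intro n hn
  obtain ⟨g, rfl⟩ := pm_surj n
  obtain ⟨l, hl⟩ := pm_mem_PP.1 (hNu hn)
  have hl1 : l * polar Q u (g.lin v) = 1 := by
    have := g.polar_lin u v
    rw [hl, polar_smul_left, h.uv, smul_eq_mul] at this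
    exact this
  have hl0 : l ≠ 0 := left_ne_zero_of_mul_eq_one hl1
  set y := l • g.lin v with hy
  have hQy : Q y = 0 := by rw [hy, QuadraticMap.map_smul, g.Q_lin, h.Qv, smul_zero]
  have huy : polar Q u y = 1 := by rw [hy, polar_smul_right, smul_eq_mul, hl1]
  have hw : polar Q u (v - y) = 0 := by rw [polar_sub_right, h.uv, huy, sub_self]
  have hmv := eo_move h hQy huy
  have hmem : pm ((eo Q u (v - y))⁻¹ * g) ∈ (N ⊔ QQ Q u) ⊓ PP Q v := by
    rw [Subgroup.mem_inf]
    constructor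
    · rw [map_mul, map_inv]
      exact mul_mem (inv_mem (Subgroup.mem_sup_right (pm_eo_mem_QQ hw))) (Subgroup.mem_sup_left hn)
    · rw [pm_mem_PP]
      refine ⟨l⁻¹, ?_⟩
      rw [OmQ.lin_mul]
      have e : g.lin v = l⁻¹ • y := by rw [hy, smul_smul, inv_mul_cancel₀ hl0, one_smul]
      have e2 : (eo Q u (v - y))⁻¹.lin y = v := by
        have := inv_lin_lin (eo Q u (v - y)) v
        rwa [hmv] at this
      rw [e, map_smul, e2]
  rw [hcore, Subgroup.mem_bot, map_mul, map_inv, inv_mul_eq_one] at hmem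
  rw [← hmem]
  exact pm_eo_mem_QQ hw

end Cfsg.Agent.Lib.Helper45.OAut
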