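import Mathlib
import Cfsg.Agent.Lib.Helper45.OAutC

set_option autoImplicit false
set_option linter.unusedSimpArgs false
set_option linter.unusedVariables false
set_option linter.unusedSectionVars false

/-! Automorphisms of `PΩ`: the unipotent radical of the stabiliser of a totally singular subspace. -/

namespace Cfsg.Agent.Lib.Helper45.OAut

open QuadraticMap Module
open Cfsg.Agent.Lib.Helper44 Cfsg.Agent.Lib.Helper5

variable {F V : Type*} [Field F] [AddCommGroup V] [Module F V]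
variable [Fintype F] [FiniteDimensional F V]
variable {Q : QuadraticForm F V} [hG : Good Q]

omit [Fintype F] [FiniteDimensional F V] hG in
/-- the elements of `Ω` acting trivially on `U` and on `U^⊥/U` -/
def KU (Q : QuadraticForm F V) (U : Submodule F V) : Subgroup (OmQ Q) where
  carrier := {g | (∀ x ∈ U, g.lin x = x) ∧ ∀ x, (∀ y ∈ U, polar Q y x = 0) → g.lin x - x ∈ U}
  mul_mem' := by
    rintro a b ⟨ha1, ha2⟩ ⟨hb1, hb2⟩
    refine ⟨fun x hx => by rw [OmQ.lin_mul, hb1 x hx, ha1 x hx], fun x hx => ?_⟩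
    have h1 := hb2 x hx
    have h2 := ha2 x hx
    have h3 := ha1 _ h1
    rw [map_sub] at h3
    have e : (a * b).lin x - x = (b.lin x - x) + (a.lin x - x) := by
      rw [OmQ.lin_mul]
      have : a.lin (b.lin x) = b.lin x - x + a.lin x := by rw [← h3]; abel
      rw [this]; abel
    rw [e]
    exact U.add_mem h1 h2
  one_mem' := ⟨fun x _ => rfl, fun x _ => by simp [OmQ.lin_one]⟩
  inv_mem' := by
    rintro a ⟨ha1, ha2⟩
    have h0 : ∀ x ∈ U, a⁻¹.lin x = x := by
      intro x hx
      have := inv_lin_lin a x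
      rwa [ha1 x hx] at this
    refine ⟨h0, fun x hx => ?_⟩
    have h2 := ha2 x hx
    have h3 := h0 _ h2
    rw [map_sub, inv_lin_lin] at h3
    have e : a⁻¹.lin x - x = -(a.lin x - x) := by
      rw [← h3]; abel
    rw [e]
    exact U.neg_mem h2

omit [Fintype F] [FiniteDimensional F V] hG in
lemma KU_perp {U : Submodule F V} {g : OmQ Q} (hg : g ∈ KU Q U) (x : V) :
    ∀ y ∈ U, polar Q y (g.lin x - x) = 0 := by
  intro y hy
  rw [polar_sub_right]
  have := g.polar_lin y x
  rw [hg.1 y hy] at this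
  rw [this, sub_self]

omit [Fintype F] [FiniteDimensional F V] hG in
lemma lin_pow_apply (g : OmQ Q) (k : ℕ) (x : V) :
    (g ^ k).lin x = ((g.lin : V →ₗ[F] V) : Module.End F V) ^ k • x := by
  induction k generalizing x with
  | zero => simp [OmQ.lin_one]
  | succ k ih =>
    rw [pow_succ, OmQ.lin_mul, ih, pow_succ]
    rfl

lemma KU_pow (p : ℕ) [Fact p.Prime] [CharP F p] {U : Submodule F V} {g : OmQ Q} (hg : g ∈ KU Q U) :
    g ^ (p ^ 2) = 1 := by
  have hp := (Fact.out : p.Prime)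
  have : Nontrivial V := by
    apply Module.nontrivial_of_finrank_pos (R := F)
    have := hG.dim; omega
  have : CharP (Module.End F V) p :=
    charP_of_injective_algebraMap (algebraMap F (Module.End F V)).injective p
  set f : Module.End F V := (g.lin : V →ₗ[F] V) with hf
  set n : Module.End F V := f - 1 with hn
  have hn1 : ∀ x, n x = g.lin x - x := fun x => rfl
  have hn3 : n ^ 3 = 0 := by
    ext x
    have e : (n ^ 3) x = n (n (n x)) := rfl
    rw [e]
    have h1 := KU_perp hg x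
    have h2 := hg.2 _ h1
    have h3 := hg.1 _ h2
    rw [hn1 x, hn1 (g.lin x - x), hn1, h3, sub_self]
    rfl
  have hnp : n ^ (p ^ 2) = 0 := by
    have h4 : 3 ≤ p ^ 2 := by nlinarith [hp.two_le]
    obtain ⟨d, hd⟩ := Nat.exists_eq_add_of_le h4
    rw [hd, pow_add, hn3, zero_mul]
  have hfp : f ^ (p ^ 2) = 1 := by
    have e : f = 1 + n := by rw [hn]; abel
    rw [e, add_pow_char_pow_of_commute p 2 (Commute.one_left n), hnp, one_pow, add_zero]
  apply OmQ.ext
  intro x
  rw [lin_pow_apply, ← hf, hfp]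
  rfl

/-- the image of `KU` in `PΩ` -/
def KUb (Q : QuadraticForm F V) (U : Submodule F V) : Subgroup (PG Q) := (KU Q U).map pm

lemma KUb_isPGroup (p : ℕ) [Fact p.Prime] [CharP F p] (U : Submodule F V) : IsPGroup p (KUb Q U) := by
  rintro ⟨_, g, hg, rfl⟩
  refine ⟨2, ?_⟩
  apply Subtype.ext
  change (pm g) ^ (p ^ 2) = 1
  rw [← map_pow, KU_pow p hg, map_one]

omit [Fintype F] hG in
lemma KU_le_PU (U : Submodule F V) : KU Q U ≤ PU Q U := by
  intro g hg
  apply mem_PU_of
  intro x hx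
  rw [hg.1 x hx]
  exact hx

omit [Fintype F] hG in
lemma KUb_le_PUb (U : Submodule F V) : KUb Q U ≤ PUb Q U := Subgroup.map_mono (KU_le_PU U)

omit [Fintype F] hG in
lemma KU_conj {U : Submodule F V} {h g : OmQ Q} (hh : h ∈ PU Q U) (hg : g ∈ KU Q U) :
    h * g * h⁻¹ ∈ KU Q U := by
  have hinv := inv_mem hh
  constructor
  · intro x hx
    rw [OmQ.lin_mul, OmQ.lin_mul, hg.1 _ ((hinv x).1 hx), lin_inv_lin]
  · intro x hx
    have h1 : ∀ y ∈ U, polar Q y (h⁻¹.lin x) = 0 := by
      intro y hy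
      rw [polar_inv_lin]
      exact hx _ ((hh y).1 hy)
    have h2 := (hh _).1 (hg.2 _ h1)
    rw [map_sub, lin_inv_lin] at h2
    rw [OmQ.lin_mul, OmQ.lin_mul]
    exact h2

lemma KUb_conj {U : Submodule F V} {h r : PG Q} (hh : h ∈ PUb Q U) (hr : r ∈ KUb Q U) :
    h * r * h⁻¹ ∈ KUb Q U := by
  obtain ⟨h, rfl⟩ := pm_surj h
  obtain ⟨g, hg, rfl⟩ := hr
  rw [pm_mem_PUb] at hh
  exact ⟨h * g * h⁻¹, KU_conj hh hg, by simp⟩

lemma eo_mem_KU {U : Submodule F V} (hU : ∀ x ∈ U, Q x = 0) {a w : V} (ha : a ∈ U)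
    (hw : ∀ y ∈ U, polar Q y w = 0) : eo Q a w ∈ KU Q U := by
  have hpol : ∀ x ∈ U, ∀ y ∈ U, polar Q x y = 0 := by
    intro x hx y hy
    unfold polar
    rw [hU _ (U.add_mem hx hy), hU x hx, hU y hy]; simp
  constructor
  · intro x hx
    exact eo_fix_of_perp (hU a ha) (hw a ha) (hpol a ha x hx) (by rw [polar_comm]; exact hw x hx)
  · intro x hx
    rw [eo_lin (hU a ha) (hw a ha), hx a ha]
    have e : x + polar Q w x • a - (0 : F) • w - (Q w * 0) • a - x = polar Q w x • a := by module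
    rw [e]
    exact U.smul_mem _ ha

/-- two elements of `KU` with the same image in `PΩ` are equal -/
lemma KU_inj {U : Submodule F V} (hU0 : U ≠ ⊥) {g g' : OmQ Q} (hg : g ∈ KU Q U) (hg' : g' ∈ KU Q U)
    (h : pm g = pm g') : g = g' := by
  obtain ⟨c, hc⟩ := pm_eq_iff.1 h
  obtain ⟨x, hx, hx0⟩ := Submodule.exists_mem_ne_zero_of_ne_bot hU0
  have h1 := hc x
  rw [hg.1 x hx, hg'.1 x hx] at h1
  have hc1 : c = 1 := by
    have : (1 : F) • x = c • x := by rw [one_smul]; exact h1
    exact (smul_left_injective F hx0 this).symm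
  apply OmQ.ext
  intro y
  rw [hc y, hc1, one_smul]

/-- **(a)** `KUb` is not abelian if `2 ≤ dim U` and `U ≠ U^⊥`. -/
theorem KUb_not_comm {U : Submodule F V} (hU : ∀ x ∈ U, Q x = 0) {a b w w' : V} (ha : a ∈ U) (hb : b ∈ U)
    (hab : ∀ c : F, b ≠ c • a) (ha0 : a ≠ 0)
    (hw : ∀ y ∈ U, polar Q y w = 0) (hw' : ∀ y ∈ U, polar Q y w' = 0) (hww : polar Q w w' ≠ 0) :
    pm (eo Q a w) * pm (eo Q b w') ≠ pm (eo Q b w') * pm (eo Q a w) := by
  intro hcomm
  have hpol : ∀ x ∈ U, ∀ y ∈ U, polar Q x y = 0 := by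
    intro x hx y hy
    unfold polar
    rw [hU _ (U.add_mem hx hy), hU x hx, hU y hy]; simp
  have hU0 : U ≠ ⊥ := by
    intro h
    rw [h] at ha
    exact ha0 ha
  rw [← map_mul, ← map_mul] at hcomm
  have h1 := KU_inj hU0 (mul_mem (eo_mem_KU hU ha hw) (eo_mem_KU hU hb hw'))
    (mul_mem (eo_mem_KU hU hb hw') (eo_mem_KU hU ha hw)) hcomm
  have h2 : eo Q a w * eo Q b w' * (eo Q a w)⁻¹ = eo Q b w' := by rw [h1]; group
  rw [conj_eo, eo_fix_of_perp (hU a ha) (hw a ha) (hpol a ha b hb) (by rw [polar_comm]; exact hw b hb),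
    eo_lin (hU a ha) (hw a ha), hw' a ha] at h2
  have e : w' + polar Q w w' • a - (0 : F) • w - (Q w * 0) • a = w' + polar Q w w' • a := by module
  rw [e, eo_add (hw' b hb) (by rw [polar_smul_right, hpol b hb a ha, smul_zero])] at h2
  have h3 : eo Q b (polar Q w w' • a) = 1 := by
    have := mul_left_cancel (a := eo Q b w') (b := eo Q b (polar Q w w' • a)) (c := 1) (by rw [h2, mul_one])
    exact this
  obtain ⟨x, hx⟩ := polar_nondeg_exists hG.nd ha0
  have h4 := congrArg (fun g : OmQ Q => g.lin x) h3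
  simp only [OmQ.lin_one] at h4
  rw [eo_lin (hU b hb) (by rw [polar_smul_right, hpol b hb a ha, smul_zero]), QuadraticMap.map_smul,
    hU a ha, polar_smul_left, polar_comm Q a x, hx] at h4
  have h5 : polar Q w w' • b = (polar Q b x * polar Q w w') • a := by
    have e2 : x + (polar Q w w' • (1 : F)) • b - polar Q b x • polar Q w w' • a
        - ((polar Q w w' * polar Q w w') • (0 : F) * polar Q b x) • b - x
        = polar Q w w' • b - (polar Q b x * polar Q w w') • a := by
      simp only [smul_eq_mul]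
      module
    rw [h4, sub_self] at e2
    exact (sub_eq_zero.1 e2.symm)
  apply hab (polar Q b x)
  have := congrArg (fun y => (polar Q w w')⁻¹ • y) h5
  simp only [smul_smul, inv_mul_cancel₀ hww, one_smul] at this
  have e3 : (polar Q w w')⁻¹ * (polar Q b x * polar Q w w') = polar Q b x := by field_simp
  rw [e3] at this
  exact this

end Cfsg.Agent.Lib.Helper45.OAut
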