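import Mathlib
import Cfsg.Agent.Lib.Helper45.OAutD

set_option autoImplicit false
set_option linter.unusedSimpArgs false
set_option linter.unusedVariables false
set_option linter.unusedSectionVars false

/-! Automorphisms of `PΩ`: orders of `Q_u` and of the radical of a big totally singular subspace. -/

namespace Cfsg.Agent.Lib.Helper45.OAut

open QuadraticMap Module
open Cfsg.Agent.Lib.Helper44 Cfsg.Agent.Lib.Helper5

variable {F V : Type*} [Field F] [AddCommGroup V] [Module F V]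
variable [Fintype F] [FiniteDimensional F V]
variable {Q : QuadraticForm F V} [hG : Good Q]

instance finite_PG : Finite (PG Q) := by
  have : Finite V := Module.finite_of_finite F
  have : Finite (V ≃ₗ[F] V) := Finite.of_injective (fun g => (g : V → V)) (fun a b h => LinearEquiv.ext (congrFun h))
  have : Finite (OmQ Q) := inferInstance
  exact Quotient.finite _

omit hG in
lemma finrank_perp2_le {u v : V} (h : HP Q u v) : finrank F (perp2 Q u v) + 2 ≤ finrank F V := by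
  have h1 : perp2 Q u v < perp2 Q u u := by
    refine lt_of_le_of_ne (fun x hx => ?_) (fun e => ?_)
    · rw [mem_perp2] at hx ⊢
      exact ⟨hx.1, hx.1⟩
    · have : u ∈ perp2 Q u u := mem_perp2.2 ⟨h.uu, h.uu⟩
      rw [← e, mem_perp2, h.vu] at this
      exact one_ne_zero this.2
  have h2 : perp2 Q u u < ⊤ := by
    refine lt_of_le_of_ne le_top (fun e => ?_)
    have : v ∈ perp2 Q u u := by rw [e]; trivial
    rw [mem_perp2, h.uv] at this
    exact one_ne_zero this.1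
  have h3 := Submodule.finrank_lt_finrank_of_lt h1
  have h4 := Submodule.finrank_lt_finrank_of_lt h2
  rw [finrank_top] at h4
  omega

lemma eo_proj {u v w : V} (h : HP Q u v) (hw : polar Q u w = 0) :
    eo Q u w = eo Q u (w - polar Q v w • u - polar Q u w • v) := by
  have h1 := (mem_perp2.1 (h.proj_mem w)).1
  have e : w = (w - polar Q v w • u - polar Q u w • v) + polar Q v w • u := by
    rw [hw]; module
  conv_lhs => rw [e]
  rw [eo_add_self h.Qu h1]

theorem card_QQ_le {u v : V} (h : HP Q u v) :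
    Nat.card (QQ Q u) ≤ Nat.card F ^ (finrank F V - 2) := by
  have : Finite V := Module.finite_of_finite F
  have h1 : Nat.card (QQ Q u) ≤ Nat.card (perp2 Q u v) := by
    apply Nat.card_le_card_of_surjective
      (fun w : perp2 Q u v => (⟨pm (eo Q u w.1), pm_eo_mem_QQ (mem_perp2.1 w.2).1⟩ : QQ Q u))
    rintro ⟨_, w, hw, rfl⟩
    refine ⟨⟨_, h.proj_mem w⟩, ?_⟩
    apply Subtype.ext
    change pm (eo Q u _) = pm (eo Q u w)
    rw [← eo_proj h hw]
  refine h1.trans ?_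
  rw [Module.natCard_eq_pow_finrank (K := F) (V := perp2 Q u v)]
  apply Nat.pow_le_pow_right Nat.card_pos
  have := finrank_perp2_le h
  omega

omit [Fintype F] hG in
lemma exists_ne_zero_of_finrank {A : Submodule F V} (h : 1 ≤ finrank F A) : ∃ x ∈ A, x ≠ 0 := by
  apply Submodule.exists_mem_ne_zero_of_ne_bot
  rintro rfl
  simp at h

/-- **(b)** a lower bound for the order of `KUb`. -/
theorem card_KUb_ge {U : Submodule F V} (hU : ∀ x ∈ U, Q x = 0) (h3 : 3 ≤ finrank F U) :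
    Nat.card F ^ (3 * finrank F U - 6) ≤ Nat.card (KUb Q U) := by
  have : Finite V := Module.finite_of_finite F
  have hpol : ∀ x ∈ U, ∀ y ∈ U, polar Q x y = 0 := by
    intro x hx y hy
    unfold polar
    rw [hU _ (U.add_mem hx hy), hU x hx, hU y hy]; simp
  have L : ∀ e ∈ U, ∀ w ∈ U, ∀ x, (eo Q e w).lin x = x + polar Q w x • e - polar Q e x • w := by
    intro e he w hw x
    rw [eo_lin (hU e he) (hpol e he w hw), hU w hw]
    module
  have hK : ∀ e ∈ U, ∀ w ∈ U, eo Q e w ∈ KU Q U := fun e he w hw =>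
    eo_mem_KU hU he (fun y hy => hpol y hy w hw)
  obtain ⟨e1, he1, he10⟩ := exists_ne_zero_of_finrank (A := U) (by omega)
  obtain ⟨f1, hf1⟩ := polar_nondeg_exists hG.nd he10
  set W1 := U ⊓ LinearMap.ker (polarBilin Q f1) with hW1
  have d1 := le_finrank_inf_ker (polarBilin Q f1) U
  rw [← hW1] at d1
  obtain ⟨e2, he2, he20⟩ := exists_ne_zero_of_finrank (A := W1) (by omega)
  obtain ⟨f2, hf2⟩ := polar_nondeg_exists hG.nd he20
  set W2 := W1 ⊓ LinearMap.ker (polarBilin Q f2) with hW2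
  have d2 := le_finrank_inf_ker (polarBilin Q f2) W1
  rw [← hW2] at d2
  obtain ⟨e3, he3, he30⟩ := exists_ne_zero_of_finrank (A := W2) (by omega)
  obtain ⟨f3, hf3⟩ := polar_nondeg_exists hG.nd he30
  set W3 := W2 ⊓ LinearMap.ker (polarBilin Q f3) with hW3
  have d3 := le_finrank_inf_ker (polarBilin Q f3) W2
  rw [← hW3] at d3
  have m1 : ∀ x ∈ W1, x ∈ U ∧ polar Q x f1 = 0 := by
    intro x hx
    refine ⟨hx.1, ?_⟩
    rw [polar_comm]
    exact hx.2
  have m2 : ∀ x ∈ W2, x ∈ W1 ∧ polar Q x f2 = 0 := by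
    intro x hx
    refine ⟨hx.1, ?_⟩
    rw [polar_comm]
    exact hx.2
  have m3 : ∀ x ∈ W3, x ∈ W2 ∧ polar Q x f3 = 0 := by
    intro x hx
    refine ⟨hx.1, ?_⟩
    rw [polar_comm]
    exact hx.2
  have hU0 : U ≠ ⊥ := by
    intro h
    rw [h] at he1
    exact he10 he1
  have e2U := (m1 e2 he2).1
  have e3U := (m1 e3 (m2 e3 he3).1).1
  let Φ : W1 × W2 × W3 → KUb Q U := fun t =>
    ⟨pm (eo Q e1 t.1.1 * (eo Q e2 t.2.1.1 * eo Q e3 t.2.2.1)),
      ⟨_, mul_mem (hK e1 he1 _ (m1 _ t.1.2).1) (mul_mem (hK e2 e2U _ (m1 _ (m2 _ t.2.1.2).1).1)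
        (hK e3 e3U _ (m1 _ (m2 _ (m3 _ t.2.2.2).1).1).1)), rfl⟩⟩
  have hΦ : Function.Injective Φ := by
    rintro ⟨⟨a1, ha1⟩, ⟨a2, ha2⟩, ⟨a3, ha3⟩⟩ ⟨⟨b1, hb1⟩, ⟨b2, hb2⟩, ⟨b3, hb3⟩⟩ hab
    have hab' : pm (eo Q e1 a1 * (eo Q e2 a2 * eo Q e3 a3)) = pm (eo Q e1 b1 * (eo Q e2 b2 * eo Q e3 b3)) :=
      congrArg Subtype.val hab
    have a1U := (m1 _ ha1).1
    have a2U := (m1 _ (m2 _ ha2).1).1
    have a3U := (m1 _ (m2 _ (m3 _ ha3).1).1).1
    have b1U := (m1 _ hb1).1
    have b2U := (m1 _ (m2 _ hb2).1).1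
    have b3U := (m1 _ (m2 _ (m3 _ hb3).1).1).1
    have E := KU_inj hU0 (mul_mem (hK e1 he1 _ a1U) (mul_mem (hK e2 e2U _ a2U) (hK e3 e3U _ a3U)))
      (mul_mem (hK e1 he1 _ b1U) (mul_mem (hK e2 e2U _ b2U) (hK e3 e3U _ b3U))) hab'
    have c1 : ∀ x1 ∈ W1, ∀ x2 ∈ W2, ∀ x3 ∈ W3,
        (eo Q e1 x1 * (eo Q e2 x2 * eo Q e3 x3)).lin f1 = f1 - x1 := by
      intro x1 h1 x2 h2 x3 h3
      rw [OmQ.lin_mul, OmQ.lin_mul, L e3 e3U x3 (m1 _ (m2 _ (m3 _ h3).1).1).1,
        (m1 _ (m2 _ (m3 _ h3).1).1).2, (m1 e3 (m2 e3 he3).1).2]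
      simp only [zero_smul, add_zero, sub_zero]
      rw [L e2 e2U x2 (m1 _ (m2 _ h2).1).1, (m1 _ (m2 _ h2).1).2, (m1 e2 he2).2]
      simp only [zero_smul, add_zero, sub_zero]
      rw [L e1 he1 x1 (m1 _ h1).1, (m1 _ h1).2, polar_comm Q e1 f1, hf1]
      simp
    have E1 : a1 = b1 := by
      have := congrArg (fun g : OmQ Q => g.lin f1) E
      simp only [c1 a1 ha1 a2 ha2 a3 ha3, c1 b1 hb1 b2 hb2 b3 hb3] at this
      exact sub_right_injective this
    subst E1
    have E' := mul_left_cancel E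
    have c2 : ∀ x2 ∈ W2, ∀ x3 ∈ W3, (eo Q e2 x2 * eo Q e3 x3).lin f2 = f2 - x2 := by
      intro x2 h2 x3 h3
      rw [OmQ.lin_mul, L e3 e3U x3 (m1 _ (m2 _ (m3 _ h3).1).1).1, (m2 _ (m3 _ h3).1).2, (m2 e3 he3).2]
      simp only [zero_smul, add_zero, sub_zero]
      rw [L e2 e2U x2 (m1 _ (m2 _ h2).1).1, (m2 _ h2).2, polar_comm Q e2 f2, hf2]
      simp
    have E2 : a2 = b2 := by
      have := congrArg (fun g : OmQ Q => g.lin f2) E'
      simp only [c2 a2 ha2 a3 ha3, c2 b2 hb2 b3 hb3] at this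
      exact sub_right_injective this
    subst E2
    have E'' := mul_left_cancel E'
    have c3 : ∀ x3 ∈ W3, (eo Q e3 x3).lin f3 = f3 - x3 := by
      intro x3 h3
      rw [L e3 e3U x3 (m1 _ (m2 _ (m3 _ h3).1).1).1, (m3 _ h3).2, polar_comm Q e3 f3, hf3]
      simp
    have E3 : a3 = b3 := by
      have := congrArg (fun g : OmQ Q => g.lin f3) E''
      simp only [c3 a3 ha3, c3 b3 hb3] at this
      exact sub_right_injective this
    subst E3
    rfl
  have hc := Nat.card_le_card_of_injective Φ hΦ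
  rw [Nat.card_prod, Nat.card_prod, Module.natCard_eq_pow_finrank (K := F) (V := W1),
    Module.natCard_eq_pow_finrank (K := F) (V := W2), Module.natCard_eq_pow_finrank (K := F) (V := W3),
    ← pow_add, ← pow_add] at hc
  refine le_trans ?_ hc
  apply Nat.pow_le_pow_right Nat.card_pos
  omega

end Cfsg.Agent.Lib.Helper45.OAut
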