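import Mathlib
import Cfsg.Agent.Lib.Helper45.OAutE

set_option autoImplicit false
set_option linter.unusedSimpArgs false
set_option linter.unusedVariables false
set_option linter.unusedSectionVars false

/-! Automorphisms of `PΩ`: an automorphism permutes the stabilisers of the singular points. -/

namespace Cfsg.Agent.Lib.Helper45.OAut

open QuadraticMap Module
open Cfsg.Agent.Lib.Helper44 Cfsg.Agent.Lib.Helper5

variable {F V : Type*} [Field F] [AddCommGroup V] [Module F V]
variable [Fintype F] [FiniteDimensional F V]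
variable {Q : QuadraticForm F V} [hG : Good Q]

omit [Fintype F] hG in
lemma PP_smul {y : V} {c : F} (hc : c ≠ 0) : PP Q (c • y) = PP Q y := by
  unfold PP
  rw [Submodule.span_singleton_smul_eq (IsUnit.mk0 c hc)]

lemma PP_isCoatom {u : V} (hu0 : u ≠ 0) (hu : Q u = 0) : IsCoatom (PP Q u) := by
  have h1 := omQ_isPreprimitive hG.nd hG.five
  have h2 : MulAction.IsPreprimitive (PG Q) (SingPt Q) :=
    MulAction.IsPreprimitive.of_surjective (M := OmQ Q) (α := SingPt Q) (φ := pm)
      (f := ⟨id, fun g x => rfl⟩) Function.surjective_id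
  obtain ⟨v, h⟩ := exists_HP hu0 hu
  have h3 : Nontrivial (SingPt Q) := by
    refine ⟨SingPt.mk Q u h.u0 h.Qu, SingPt.mk Q v h.v0 h.Qv, ?_⟩
    intro e
    rw [SingPt.mk_eq_mk_iff] at e
    obtain ⟨a, ha⟩ := e
    have := h.uv
    rw [← ha, polar_smul_left, h.vv] at this
    simp at this
  have := MulAction.IsPreprimitive.isCoatom_stabilizer_of_isPreprimitive (G := PG Q)
    (SingPt.mk Q u hu0 hu)
  rwa [stabilizer_mk] at this

lemma PUb_ne_top {U : Submodule F V} (h0 : U ≠ ⊥) (h1 : U ≠ ⊤) : PUb Q U ≠ ⊤ := by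
  intro htop
  obtain ⟨u, v, h⟩ := exists_HP' (Q := Q)
  apply h1
  apply irred nice_top (e := u) (f := v) trivial trivial h.Qu h.Qv (by rw [h.uv]; exact one_ne_zero) U
    le_top h0
  intro s _ z _ _ _ x hx
  have : pm (eo Q s z) ∈ PUb Q U := by rw [htop]; trivial
  rw [pm_mem_PUb] at this
  exact (this x).1 hx

lemma eo_eq_one {u v w : V} (h : HP Q u v) (hw : w ∈ perp2 Q u v) (h1 : pm (eo Q u w) = 1) : w = 0 := by
  rw [mem_perp2] at hw
  obtain ⟨c, hc⟩ := pm_eq_one_iff.1 h1
  have e1 := hc u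
  rw [eo_lin h.Qu hw.1, h.uu, polar_comm Q w u, hw.1] at e1
  have hc1 : c = 1 := by
    have : (1 : F) • u = c • u := by rw [← e1]; simp
    exact (smul_left_injective F h.u0 this).symm
  have e2 := hc v
  rw [eo_lin h.Qu hw.1, h.uv, polar_comm Q w v, hw.2, hc1] at e2
  have e3 : w = (-Q w) • u := by
    have : v + (0 : F) • u - (1 : F) • w - (Q w * 1) • u - v = -w - Q w • u := by module
    rw [e2] at this
    have h4 : -w - Q w • u = 0 := by rw [← this]; simp
    have : w = -(Q w • u) := by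
      rw [sub_eq_zero] at h4
      rw [← h4, neg_neg]
    exact this.trans (neg_smul _ _).symm
  have e4 : Q w = 0 := by
    have := hw.2
    rw [e3, polar_smul_right, h.vu] at this
    simpa using this
  rw [e3, e4]; simp

lemma eo_inj {u v w w' : V} (h : HP Q u v) (hw : w ∈ perp2 Q u v) (hw' : w' ∈ perp2 Q u v)
    (h1 : pm (eo Q u w) = pm (eo Q u w')) : w = w' := by
  have h2 : pm (eo Q u (w - w')) = 1 := by
    rw [eo_sub (mem_perp2.1 hw).1 (mem_perp2.1 hw').1, map_mul, map_inv, h1, mul_inv_cancel]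
  exact sub_eq_zero.1 (eo_eq_one h (Submodule.sub_mem _ hw hw') h2)

lemma QQ_ne_bot {u : V} (hu0 : u ≠ 0) (hu : Q u = 0) : QQ Q u ≠ ⊥ := by
  obtain ⟨v, h⟩ := exists_HP hu0 hu
  obtain ⟨w, hw, hw0⟩ := exists_ne_zero_of_finrank (A := perp2 Q u v) (by
    have := finrank_perp2_ge (Q := Q) u v; omega)
  intro hb
  have : pm (eo Q u w) ∈ QQ Q u := pm_eo_mem_QQ (mem_perp2.1 hw).1
  rw [hb, Subgroup.mem_bot] at this
  exact hw0 (eo_eq_one h hw this)

theorem exists_QQ_le (p : ℕ) [Fact p.Prime] [CharP F p] (β : PG Q ≃* PG Q) {u : V} (hu0 : u ≠ 0) (hu : Q u = 0) :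
    ∃ u', u' ≠ 0 ∧ Q u' = 0 ∧ QQ Q u' ≤ (PP Q u).map β.toMonoidHom := by
  obtain ⟨S, hS⟩ := (QQ_isPGroup (Q := Q) p u).exists_le_sylow
  obtain ⟨y, hy0, hy, hSy⟩ := exists_fixed p S.isPGroup'
  obtain ⟨c, hc⟩ := eq_smul_of_QQ_le hu hy0 (hS.trans hSy)
  have hc0 : c ≠ 0 := by
    rintro rfl
    rw [zero_smul] at hc
    exact hu0 hc
  have hSu : (S : Subgroup (PG Q)) ≤ PP Q u := by rw [hc, PP_smul hc0]; exact hSy
  set T := (S : Subgroup (PG Q)).map β.toMonoidHom with hT
  have hTp : IsPGroup p T := S.isPGroup'.map _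
  obtain ⟨u', hu'0, hu', hTu'⟩ := exists_fixed p hTp
  refine ⟨u', hu'0, hu', ?_⟩
  have hsup : IsPGroup p (T ⊔ QQ Q u' : Subgroup (PG Q)) := by
    apply IsPGroup.to_sup_of_normal_right' hTp (QQ_isPGroup p u')
    intro r hr
    rw [Subgroup.mem_normalizer_iff]
    intro x
    constructor
    · intro hx
      exact QQ_normal hu' hu'0 (hTu' hr) hx
    · intro hx
      have := QQ_normal hu' hu'0 (inv_mem (hTu' hr)) hx
      simpa [mul_assoc] using this
  have h1 : (T ⊔ QQ Q u').comap β.toMonoidHom = S := by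
    apply S.is_maximal' (hsup.comap_of_injective _ β.injective)
    rw [← Subgroup.map_le_iff_le_comap]
    exact le_sup_left
  intro x hx
  have h2 : β.symm x ∈ (T ⊔ QQ Q u').comap β.toMonoidHom := by
    rw [Subgroup.mem_comap]
    change β (β.symm x) ∈ _
    rw [β.apply_symm_apply]
    exact Subgroup.mem_sup_right hx
  rw [h1] at h2
  exact ⟨β.symm x, hSu h2, β.apply_symm_apply x⟩

theorem step1a (p : ℕ) [Fact p.Prime] [CharP F p] (β : PG Q ≃* PG Q) {u : V} (hu0 : u ≠ 0) (hu : Q u = 0) :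
    ∃ U : Submodule F V, U ≠ ⊥ ∧ (∀ x ∈ U, Q x = 0) ∧ (PP Q u).map β.toMonoidHom = PUb Q U := by
  set M := (PP Q u).map β.toMonoidHom with hM
  set R := (QQ Q u).map β.toMonoidHom with hR
  have hRp : IsPGroup p R := (QQ_isPGroup p u).map _
  have hRne : R ≠ ⊥ := by
    intro h
    rw [hR, Subgroup.map_eq_bot_iff_of_injective _ β.injective] at h
    exact QQ_ne_bot hu0 hu h
  have hnorm : ∀ m ∈ M, ∀ r ∈ R, m⁻¹ * r * m ∈ R := by
    rintro _ ⟨a, ha, rfl⟩ _ ⟨b, hb, rfl⟩
    refine ⟨a⁻¹ * b * a, ?_, by simp⟩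
    have := QQ_normal hu hu0 (inv_mem ha) hb
    simpa using this
  set S0 := Submodule.span F (Eig R) with hS0
  have hS0ne : S0 ≠ ⊥ := by
    obtain ⟨y, hy0, -, hy⟩ := exists_fixed p hRp
    intro h
    have : y ∈ S0 := Submodule.subset_span (mem_Eig_iff_le_PP.2 hy)
    rw [h] at this
    exact hy0 this
  have hS0top : S0 ≠ ⊤ := fun h => hRne (eq_bot_of_span p hRp h)
  have hinvM : ∀ g : OmQ Q, pm g ∈ M → ∀ x ∈ S0, g.lin x ∈ S0 := fun g hg x hx =>
    span_Eig_map (hnorm _ hg) hx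
  obtain ⟨u', hu'0, hu', hle⟩ := exists_QQ_le p β hu0 hu
  rcases inv_sub nice_top (s := u') trivial hu' S0 le_top
    (fun z _ hz x hx => hinvM _ (hle (pm_eo_mem_QQ hz)) x hx) with h | h | h
  · exact absurd h hS0ne
  · exact absurd h hS0top
  let U1 : Submodule F V :=
    { carrier := {x | x ∈ S0 ∧ Q x = 0 ∧ ∀ y ∈ S0, polar Q x y = 0}
      add_mem' := by
        rintro a b ⟨ha1, ha2, ha3⟩ ⟨hb1, hb2, hb3⟩
        refine ⟨S0.add_mem ha1 hb1, ?_, fun y hy => ?_⟩
        · rw [QuadraticMap.map_add (⇑Q), ha2, hb2, ha3 b hb1]; simp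
        · rw [polar_add_left, ha3 y hy, hb3 y hy, add_zero]
      zero_mem' := ⟨S0.zero_mem, by simp, fun y _ => by simp⟩
      smul_mem' := by
        rintro c a ⟨ha1, ha2, ha3⟩
        refine ⟨S0.smul_mem _ ha1, ?_, fun y hy => ?_⟩
        · rw [QuadraticMap.map_smul, ha2, smul_zero]
        · rw [polar_smul_left, ha3 y hy, smul_zero] }
  have hU1 : ∀ x, x ∈ U1 ↔ x ∈ S0 ∧ Q x = 0 ∧ ∀ y ∈ S0, polar Q x y = 0 := fun x => Iff.rfl
  have hu'U : u' ∈ U1 := ⟨h.1, hu', h.2⟩
  have hU1ne : U1 ≠ ⊥ := by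
    intro hb
    rw [hb] at hu'U
    exact hu'0 hu'U
  have hU1top : U1 ≠ ⊤ := by
    intro ht
    obtain ⟨a, b, hab⟩ := exists_HP' (Q := Q)
    have h1 : a ∈ U1 := by rw [ht]; trivial
    have h2 : b ∈ U1 := by rw [ht]; trivial
    have := h1.2.2 b h2.1
    rw [hab.uv] at this
    exact one_ne_zero this
  have hMle : M ≤ PUb Q U1 := by
    intro m hm
    obtain ⟨g, rfl⟩ := pm_surj m
    rw [pm_mem_PUb]
    apply mem_PU_of
    rintro x ⟨hx1, hx2, hx3⟩
    refine ⟨hinvM g hm x hx1, by rw [g.Q_lin, hx2], fun y hy => ?_⟩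
    rw [← polar_inv_lin]
    apply hx3
    apply hinvM
    · rw [map_inv]; exact inv_mem hm
    · exact hy
  have hco : IsCoatom M := by
    have := (β.mapSubgroup.isCoatom_iff (PP Q u)).2 (PP_isCoatom hu0 hu)
    exact this
  refine ⟨U1, hU1ne, fun x hx => hx.2.1, ?_⟩
  exact ((hco.le_iff_eq (PUb_ne_top hU1ne hU1top)).1 hMle).symm

/-- **Step 1**: an automorphism maps point stabilisers to point stabilisers. -/
theorem step1 (p : ℕ) [Fact p.Prime] [CharP F p] (hyp : 10 ≤ finrank F V ∨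
      ∀ U : Submodule F V, (∀ x ∈ U, Q x = 0) → 2 * finrank F U ≠ finrank F V)
    (β : PG Q ≃* PG Q) {u : V} (hu0 : u ≠ 0) (hu : Q u = 0) :
    ∃ u', u' ≠ 0 ∧ Q u' = 0 ∧ (PP Q u).map β.toMonoidHom = PP Q u' := by
  obtain ⟨U, hU0, hU, hMU⟩ := step1a p β hu0 hu
  have hpol : ∀ x ∈ U, ∀ y ∈ U, polar Q x y = 0 := by
    intro x hx y hy
    unfold polar
    rw [hU _ (U.add_mem hx hy), hU x hx, hU y hy]; simp
  set N := (KUb Q U).comap β.toMonoidHom with hN
  have hNp : IsPGroup p N := (KUb_isPGroup p U).comap_of_injective _ β.injective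
  have hNu : N ≤ PP Q u := by
    intro x hx
    have h1 : β x ∈ PUb Q U := KUb_le_PUb U hx
    rw [← hMU] at h1
    obtain ⟨y, hy, e⟩ := h1
    have : y = x := β.injective e
    rwa [← this]
  have hNn : ∀ h ∈ PP Q u, ∀ r ∈ N, h * r * h⁻¹ ∈ N := by
    intro h hh r hr
    have h1 : β h ∈ PUb Q U := by rw [← hMU]; exact ⟨h, hh, rfl⟩
    have := KUb_conj h1 hr
    change β (h * r * h⁻¹) ∈ KUb Q U
    rw [map_mul, map_mul, map_inv]
    exact this
  have hNQ := le_QQ_of_normal p hu0 hu hNp hNu hNn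
  obtain ⟨a, ha, ha0⟩ := Submodule.exists_mem_ne_zero_of_ne_bot hU0
  by_cases hk : finrank F U ≤ 1
  · refine ⟨a, ha0, hU a ha, ?_⟩
    rw [hMU]
    unfold PP
    congr 1
    symm
    apply Submodule.eq_of_le_of_finrank_le
    · rw [Submodule.span_singleton_le_iff_mem]; exact ha
    · rw [finrank_span_singleton ha0]; exact hk
  exfalso
  push Not at hk
  obtain ⟨b, hb, hba⟩ := exists_mem_not_mem_span_singleton U (by omega) a
  have hba' : ∀ c : F, b ≠ c • a := by
    intro c hc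
    apply hba
    rw [hc]
    exact Submodule.smul_mem _ _ (Submodule.mem_span_singleton_self a)
  have hcommK : ∀ r ∈ KUb Q U, ∀ s ∈ KUb Q U, r * s = s * r := by
    intro r hr s hs
    have h1 : β.symm r ∈ N := by
      change β (β.symm r) ∈ KUb Q U
      rw [β.apply_symm_apply]; exact hr
    have h2 : β.symm s ∈ N := by
      change β (β.symm s) ∈ KUb Q U
      rw [β.apply_symm_apply]; exact hs
    have h3 := QQ_comm (hNQ h1) (hNQ h2)
    have h4 := congrArg β h3
    simpa using h4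
  by_cases hUU : LinearMap.BilinForm.orthogonal (polarBilin Q) U ≤ U
  · have hle : U ≤ LinearMap.BilinForm.orthogonal (polarBilin Q) U := by
      intro x hx
      rw [LinearMap.BilinForm.mem_orthogonal_iff]
      intro y hy
      exact hpol y hy x hx
    have heq := le_antisymm hUU hle
    have hfr := LinearMap.BilinForm.finrank_orthogonal hG.nd U
    rw [heq] at hfr
    have hle' := Submodule.finrank_le U
    have h2k : 2 * finrank F U = finrank F V := by omega
    rcases hyp with h10 | hno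
    · obtain ⟨v, h⟩ := exists_HP hu0 hu
      have c1 := card_KUb_ge hU (by omega)
      have c2 := card_QQ_le h
      have c3 : Nat.card (KUb Q U) ≤ Nat.card (QQ Q u) := by
        apply Nat.card_le_card_of_injective
          (fun r : KUb Q U => (⟨β.symm r.1, hNQ (by
            change β (β.symm r.1) ∈ KUb Q U
            rw [β.apply_symm_apply]; exact r.2)⟩ : QQ Q u))
        intro r s hrs
        apply Subtype.ext
        exact β.symm.injective (congrArg Subtype.val hrs)
      have c4 := c1.trans (c3.trans c2)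
      have hq : 1 < Nat.card F := Finite.one_lt_card
      have c5 := (Nat.pow_le_pow_iff_right hq).1 c4
      omega
    · exact hno U hU h2k
  · obtain ⟨w, hw, hwU⟩ := SetLike.not_le_iff_exists.1 hUU
    have h1 : ∃ w' ∈ LinearMap.BilinForm.orthogonal (polarBilin Q) U, polar Q w w' ≠ 0 := by
      by_contra hcon
      push Not at hcon
      apply hwU
      rw [← LinearMap.BilinForm.orthogonal_orthogonal hG.nd
        (fun x y hxy => by
          change polar Q y x = 0
          rw [polar_comm]; exact hxy) U,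
        LinearMap.BilinForm.mem_orthogonal_iff]
      intro y hy
      change polar Q y w = 0
      rw [polar_comm]
      exact hcon y hy
    obtain ⟨w', hw', hww⟩ := h1
    rw [LinearMap.BilinForm.mem_orthogonal_iff] at hw hw'
    exact KUb_not_comm hU ha hb hba' ha0 hw hw' hww
      (hcommK _ ⟨_, eo_mem_KU hU ha hw, rfl⟩ _ ⟨_, eo_mem_KU hU hb hw', rfl⟩)

end Cfsg.Agent.Lib.Helper45.OAut
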