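import Mathlib
import Cfsg.Agent.Lib.Helper5.OmegaGen
import Cfsg.Agent.Lib.Helper13.OrthAE

set_option autoImplicit false
set_option linter.unusedSimpArgs false
set_option linter.unusedVariables false
set_option linter.unusedSectionVars false

/-! An additive bijection of a quadratic space mapping singular lines to singular lines is a
semisimilarity. -/

namespace Cfsg.Agent.Lib.Helper45.OAut

open QuadraticMap Module
open Cfsg.Agent.Lib.Helper44 Cfsg.Agent.Lib.Helper5

variable {F W : Type*} [Field F] [AddCommGroup W] [Module F W]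
variable [Fintype F] [FiniteDimensional F W]

section
variable {Q : QuadraticForm F W} (hQ : (polarBilin Q).Nondegenerate) (h5 : 5 ≤ finrank F W)
  (φ : W ≃+ W) (h1 : ∀ s, Q s = 0 → Q (φ s) = 0)
  (h2 : ∀ s, Q s = 0 → ∀ t : F, ∃ t' : F, φ (t • s) = t' • φ s)

include h2 in
/-- independent singular vectors have independent images -/
lemma sl_indep {s s' : W} (hs : Q s = 0) (hs0 : s ≠ 0) (hne : ∀ a : F, s' ≠ a • s) (a : F) :
    φ s' ≠ a • φ s := by
  classical
  intro h
  choose τ hτ using h2 s hs
  have hφs : φ s ≠ 0 := fun h0 => hs0 (by simpa using h0)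
  have hinj : Function.Injective τ := by
    intro t t' htt
    have e : φ (t • s) = φ (t' • s) := by rw [hτ, hτ, htt]
    exact smul_left_injective F hs0 (φ.injective e)
  obtain ⟨t, ht⟩ := (Finite.injective_iff_surjective.1 hinj) a
  apply hne t
  apply φ.injective
  rw [h, hτ, ht]

include h2 in
lemma sl_step {s s' : W} (hs : Q s = 0) (hs' : Q s' = 0) (hs0 : s ≠ 0) (hss : polar Q s s' = 0)
    (hne : ∀ a : F, s' ≠ a • s) {t c c' : F} (hc : φ (t • s) = c • φ s) (hc' : φ (t • s') = c' • φ s') :
    c = c' := by
  have hsum : Q (s + s') = 0 := by rw [QuadraticMap.map_add (⇑Q), hs, hs', hss]; simp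
  obtain ⟨d, hd⟩ := h2 (s + s') hsum t
  rw [smul_add, map_add, map_add, hc, hc', smul_add] at hd
  have e : (c' - d) • φ s' = (d - c) • φ s := by
    rw [sub_smul, sub_smul, sub_eq_sub_iff_add_eq_add]
    rw [add_comm (c' • φ s'), hd, add_comm]
  have hd' : c' = d := by
    by_contra hcd
    have hcd' : c' - d ≠ 0 := sub_ne_zero.2 hcd
    apply sl_indep φ h2 hs hs0 hne ((c' - d)⁻¹ * (d - c))
    rw [mul_smul, ← e, smul_smul, inv_mul_cancel₀ hcd', one_smul]
  rw [hd', sub_self, zero_smul] at e
  have hφs : φ s ≠ 0 := fun h0 => hs0 (by simpa using h0)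
  have := (smul_eq_zero.1 e.symm).resolve_right hφs
  rw [hd']
  exact (sub_eq_zero.1 this).symm

include hQ h5 h2 in
lemma sl_all {s s' : W} (hs : Q s = 0) (hs' : Q s' = 0) (hs0 : s ≠ 0) (hs'0 : s' ≠ 0)
    {t c c' : F} (hc : φ (t • s) = c • φ s) (hc' : φ (t • s') = c' • φ s') : c = c' := by
  by_cases hss : polar Q s s' = 0
  · by_cases hne : ∀ a : F, s' ≠ a • s
    · exact sl_step φ h2 hs hs' hs0 hss hne hc hc'
    · push Not at hne
      obtain ⟨a, ha⟩ := hne
      obtain ⟨f, hf, hsf⟩ := exists_hyp_partner hQ hs0 hs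
      have h3 := le_finrank_perp2 Q s f
      obtain ⟨r, hr, hr0, hQr⟩ := exists_singular_of_finrank Q (perp2 Q s f) (by omega)
      rw [mem_perp2] at hr
      obtain ⟨d, hd⟩ := h2 r hQr t
      have hrs : ∀ b : F, r ≠ b • s := by
        intro b hb
        have := hr.2
        rw [hb, polar_smul_right, polar_comm Q f s, hsf, smul_eq_mul, mul_one] at this
        rw [this, zero_smul] at hb
        exact hr0 hb
      have e1 := sl_step φ h2 hs hQr hs0 hr.1 hrs hc hd
      have ha0 : a ≠ 0 := by
        rintro rfl
        rw [zero_smul] at ha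
        exact hs'0 ha
      have e2 := sl_step φ h2 hs' hQr hs'0 (by rw [ha, polar_smul_left, hr.1, smul_zero]) (by
        intro b hb
        apply hrs (b * a)
        rw [hb, ha, smul_smul]) hc' hd
      rw [e1, e2]
  · have h3 := le_finrank_perp2 Q s s'
    obtain ⟨r, hr, hr0, hQr⟩ := exists_singular_of_finrank Q (perp2 Q s s') (by omega)
    rw [mem_perp2] at hr
    obtain ⟨d, hd⟩ := h2 r hQr t
    have e1 := sl_step φ h2 hs hQr hs0 hr.1 (by
      intro b hb
      have := hr.2
      rw [hb, polar_smul_right, polar_comm Q s' s, smul_eq_mul] at this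
      have hb0 := (mul_eq_zero.1 this).resolve_right hss
      rw [hb0, zero_smul] at hb
      exact hr0 hb) hc hd
    have e2 := sl_step φ h2 hs' hQr hs'0 hr.2 (by
      intro b hb
      have := hr.1
      rw [hb, polar_smul_right, smul_eq_mul] at this
      have hb0 := (mul_eq_zero.1 this).resolve_right hss
      rw [hb0, zero_smul] at hb
      exact hr0 hb) hc' hd
    rw [e1, e2]

include hQ h5 h2 in
/-- semilinearity -/
theorem sl_semilinear : ∃ σ : F ≃+* F, ∀ (t : F) (x : W), φ (t • x) = σ t • φ x := by
  classical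
  obtain ⟨e, f, he, hf, hef, -, -⟩ := exists_hyp_pair_perp hQ h5 (0 : W)
  have he0 : e ≠ 0 := by
    rintro rfl
    simp at hef
  have hφe : φ e ≠ 0 := fun h0 => he0 (by simpa using h0)
  choose τ hτ using h2 e he
  have key : ∀ s, Q s = 0 → ∀ t, φ (t • s) = τ t • φ s := by
    intro s hs t
    by_cases hs0 : s = 0
    · rw [hs0]; simp
    obtain ⟨c, hc⟩ := h2 s hs t
    rw [hc, sl_all hQ h5 φ h2 hs he hs0 he0 hc (hτ t)]
  have hadd : ∀ a b, τ (a + b) = τ a + τ b := by
    intro a b
    apply smul_left_injective F hφe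
    change τ (a + b) • φ e = (τ a + τ b) • φ e
    rw [← hτ, add_smul, map_add, hτ, hτ, add_smul]
  have hmul : ∀ a b, τ (a * b) = τ a * τ b := by
    intro a b
    apply smul_left_injective F hφe
    change τ (a * b) • φ e = (τ a * τ b) • φ e
    rw [← hτ, mul_smul, key (b • e) (by rw [QuadraticMap.map_smul, he, smul_zero]) a, hτ, smul_smul]
  have hone : τ 1 = 1 := by
    apply smul_left_injective F hφe
    change τ 1 • φ e = (1 : F) • φ e
    rw [← hτ, one_smul, one_smul]
  have hzero : τ 0 = 0 := by
    apply smul_left_injective F hφe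
    change τ 0 • φ e = (0 : F) • φ e
    rw [← hτ, zero_smul, zero_smul, map_zero]
  let σ0 : F →+* F :=
    { toFun := τ
      map_one' := hone
      map_mul' := hmul
      map_zero' := hzero
      map_add' := hadd }
  have hbij : Function.Bijective σ0 := Finite.injective_iff_bijective.1 σ0.injective
  refine ⟨RingEquiv.ofBijective σ0 hbij, ?_⟩
  intro t x
  change φ (t • x) = τ t • φ x
  let X : AddSubgroup W :=
    { carrier := {x | ∀ t, φ (t • x) = τ t • φ x}
      add_mem' := by
        intro a b ha hb t
        rw [smul_add, map_add, map_add, ha, hb, smul_add]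
      zero_mem' := by intro t; simp
      neg_mem' := by
        intro a ha t
        rw [smul_neg, map_neg, map_neg, ha, smul_neg] }
  exact Cfsg.Agent.Lib.Helper13.O.span_sing (W := ⊤) (e := e) (f := f) trivial trivial he hf hef X
    (fun u _ hu => key u hu) x trivial t

include hQ h5 h1 in
/-- a semilinear bijection preserving singular vectors is a semisimilarity -/
theorem sl_similarity (σ : F ≃+* F) (hσ : ∀ (t : F) (x : W), φ (t • x) = σ t • φ x) :
    ∃ c : F, c ≠ 0 ∧ ∀ x, Q (φ x) = c * σ (Q x) := by
  obtain ⟨e, f, he, hf, hef, -, -⟩ := exists_hyp_pair_perp hQ h5 (0 : W)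
  have hfe : polar Q f e = 1 := by rw [polar_comm]; exact hef
  have hee : polar Q e e = 0 := by rw [polar_self, he]; simp
  have hff : polar Q f f = 0 := by rw [polar_self, hf]; simp
  -- a hyperbolic pair in `⟨e,f⟩^⊥`
  have h3 := le_finrank_perp2 Q e f
  obtain ⟨s, hs, hs0, hQs⟩ := exists_singular_of_finrank Q (perp2 Q e f) (by omega)
  obtain ⟨z, hz⟩ := polar_nondeg_exists hQ hs0
  have hs' := mem_perp2.1 hs
  set z' := z - polar Q f z • e - polar Q e z • f with hz'
  have hz'W : z' ∈ perp2 Q e f := by
    rw [mem_perp2]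
    constructor
    · simp only [hz', polar_sub_right, polar_smul_right, hee, hef, smul_eq_mul]; ring
    · simp only [hz', polar_sub_right, polar_smul_right, hff, hfe, smul_eq_mul]; ring
  have hsz' : polar Q s z' = 1 := by
    simp only [hz', polar_sub_right, polar_smul_right, polar_comm Q s e, polar_comm Q s f, hs'.1,
      hs'.2, polar_comm Q s z, hz, smul_eq_mul]; ring
  set f2 := z' + (-Q z') • s with hf2
  have hf2W : f2 ∈ perp2 Q e f := Submodule.add_mem _ hz'W (Submodule.smul_mem _ _ hs)
  have hQf2 : Q f2 = 0 := by rw [hf2, Q_add_smul, hQs, polar_comm Q z' s, hsz']; ring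
  have hsf2 : polar Q s f2 = 1 := by
    rw [hf2, polar_add_right, polar_smul_right, polar_self, hQs, hsz']; simp
  -- the transported polar form
  have hpolφ : ∀ x y, polar Q (φ x) (φ y) = Q (φ (x + y)) - Q (φ x) - Q (φ y) := by
    intro x y
    rw [map_add]; rfl
  set c := polar Q (φ e) (φ f) with hc
  have hperp : ∀ a, Q a = 0 → ∀ x ∈ perp2 Q e f, polar Q a x = 0 → Q x = 0 → polar Q (φ x) (φ a) = 0 := by
    intro a ha x _ hax hx
    rw [hpolφ, h1 x hx, h1 a ha, h1 (x + a) (by
      rw [QuadraticMap.map_add (⇑Q), hx, ha, polar_comm, hax]; simp)]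
    simp
  have hpe : ∀ x ∈ perp2 Q e f, polar Q (φ x) (φ e) = 0 := by
    let X : AddSubgroup W :=
      { carrier := {x | polar Q (φ x) (φ e) = 0}
        add_mem' := by
          intro a b ha hb
          change polar Q (φ (a + b)) (φ e) = 0
          rw [map_add, polar_add_left, ha, hb, add_zero]
        zero_mem' := by
          change polar Q (φ 0) (φ e) = 0
          simp
        neg_mem' := by
          intro a ha
          change polar Q (φ (-a)) (φ e) = 0
          rw [map_neg, polar_neg_left, ha, neg_zero] }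
    exact Cfsg.Agent.Lib.Helper13.O.span_sing hs hf2W hQs hQf2 hsf2 X
      (fun u hu hQu => hperp e he u hu (mem_perp2.1 hu).1 hQu)
  have hpf : ∀ x ∈ perp2 Q e f, polar Q (φ x) (φ f) = 0 := by
    let X : AddSubgroup W :=
      { carrier := {x | polar Q (φ x) (φ f) = 0}
        add_mem' := by
          intro a b ha hb
          change polar Q (φ (a + b)) (φ f) = 0
          rw [map_add, polar_add_left, ha, hb, add_zero]
        zero_mem' := by
          change polar Q (φ 0) (φ f) = 0
          simp
        neg_mem' := by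
          intro a ha
          change polar Q (φ (-a)) (φ f) = 0
          rw [map_neg, polar_neg_left, ha, neg_zero] }
    exact Cfsg.Agent.Lib.Helper13.O.span_sing hs hf2W hQs hQf2 hsf2 X
      (fun u hu hQu => hperp f hf u hu (mem_perp2.1 hu).2 hQu)
  have hab : ∀ a b : F, Q (φ (a • e + b • f)) = c * σ (a * b) := by
    intro a b
    rw [map_add, hσ, hσ, QuadraticMap.map_add (⇑Q), QuadraticMap.map_smul, QuadraticMap.map_smul,
      h1 e he, h1 f hf, polar_smul_left, polar_smul_right, ← hc, map_mul]
    simp only [smul_eq_mul]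
    ring
  have hW : ∀ x ∈ perp2 Q e f, Q (φ x) = c * σ (Q x) := by
    intro x hx
    have hx' := mem_perp2.1 hx
    have hsing : Q (x + ((-Q x) • e + (1 : F) • f)) = 0 := by
      rw [QuadraticMap.map_add (⇑Q), QuadraticMap.map_add (⇑Q), QuadraticMap.map_smul,
        QuadraticMap.map_smul, he, hf, polar_smul_left, polar_smul_right, hef, polar_add_right,
        polar_smul_right, polar_smul_right, polar_comm Q x e, polar_comm Q x f, hx'.1, hx'.2]
      simp
    have h4 := h1 _ hsing
    rw [map_add, QuadraticMap.map_add (⇑Q), hab, map_add, hσ, hσ, polar_add_right, polar_smul_right,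
      polar_smul_right, hpe x hx, hpf x hx] at h4
    simp only [smul_eq_mul, mul_zero, add_zero, mul_one, map_neg] at h4
    linear_combination h4
  have hall : ∀ x, Q (φ x) = c * σ (Q x) := by
    intro x
    set w := x - polar Q f x • e - polar Q e x • f with hw
    have hwW : w ∈ perp2 Q e f := by
      rw [mem_perp2]
      constructor
      · simp only [hw, polar_sub_right, polar_smul_right, hee, hef, smul_eq_mul]; ring
      · simp only [hw, polar_sub_right, polar_smul_right, hff, hfe, smul_eq_mul]; ring
    have hw' := mem_perp2.1 hwW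
    have ex : x = w + (polar Q f x • e + polar Q e x • f) := by rw [hw]; abel
    have e1 : Q x = Q w + polar Q f x * polar Q e x := by
      conv_lhs => rw [ex]
      rw [QuadraticMap.map_add (⇑Q), QuadraticMap.map_add (⇑Q), QuadraticMap.map_smul,
        QuadraticMap.map_smul, he, hf, polar_smul_left, polar_smul_right, hef, polar_add_right,
        polar_smul_right, polar_smul_right, polar_comm Q w e, polar_comm Q w f, hw'.1, hw'.2]
      simp only [smul_eq_mul]
      ring
    conv_lhs => rw [ex]
    rw [map_add, QuadraticMap.map_add (⇑Q), hab, hW w hwW, map_add, hσ, hσ, polar_add_right,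
      polar_smul_right, polar_smul_right, hpe w hwW, hpf w hwW, e1, map_add]
    simp only [smul_eq_mul]
    ring
  refine ⟨c, ?_, hall⟩
  intro hc0
  have h6 : Q (φ (φ.symm (e + f))) = 0 := by rw [hall, hc0, zero_mul]
  rw [φ.apply_symm_apply, QuadraticMap.map_add (⇑Q), he, hf, hef] at h6
  simp at h6

end

end Cfsg.Agent.Lib.Helper45.OAut
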