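import Mathlib
import Cfsg.Agent.Lib.Helper45.OAutF
import Cfsg.Agent.Lib.Helper45.OAutG
import Cfsg.Agent.Lib.Helper44.StdForms

set_option autoImplicit false
set_option linter.unusedSimpArgs false
set_option linter.unusedVariables false
set_option linter.unusedSectionVars false

/-! Automorphisms of `PΩ`: the permutation of the points, normalisation, the map `φ`. -/

namespace Cfsg.Agent.Lib.Helper45.OAut

open QuadraticMap Module
open Cfsg.Agent.Lib.Helper44 Cfsg.Agent.Lib.Helper5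

variable {F V : Type*} [Field F] [AddCommGroup V] [Module F V]
variable [Fintype F] [FiniteDimensional F V]
variable {Q : QuadraticForm F V} [hG : Good Q]

lemma mem_PP_conj {h : OmQ Q} {x : V} {r : PG Q} :
    r ∈ PP Q (h.lin x) ↔ (pm h)⁻¹ * r * pm h ∈ PP Q x := by
  obtain ⟨g, rfl⟩ := pm_surj r
  rw [← map_inv, ← map_mul, ← map_mul, pm_mem_PP, pm_mem_PP]
  constructor
  · rintro ⟨c, hc⟩
    refine ⟨c, ?_⟩
    rw [OmQ.lin_mul, OmQ.lin_mul, hc, map_smul, inv_lin_lin]
  · rintro ⟨c, hc⟩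
    refine ⟨c, ?_⟩
    rw [OmQ.lin_mul, OmQ.lin_mul] at hc
    have := congrArg h.lin hc
    rwa [lin_inv_lin, map_smul] at this

lemma PP_eq_imp {x y : V} (hx : Q x = 0) (hy0 : y ≠ 0) (h : PP Q x = PP Q y) : ∃ c : F, x = c • y :=
  eq_smul_of_QQ_le hx hy0 (h ▸ QQ_le_PP hx)

/-- `β` maps the stabiliser of `x` onto the stabiliser of `y` -/
def Sends (β : PG Q ≃* PG Q) (x y : V) : Prop := ∀ r, r ∈ PP Q x ↔ β r ∈ PP Q y

omit [Fintype F] hG in
lemma sends_of_map {β : PG Q ≃* PG Q} {x y : V} (h : (PP Q x).map β.toMonoidHom = PP Q y) :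
    Sends β x y := by
  intro r
  rw [← h]
  constructor
  · intro hr
    exact ⟨r, hr, rfl⟩
  · rintro ⟨s, hs, e⟩
    have : s = r := β.injective e
    rwa [← this]

omit [Fintype F] hG in
lemma Sends.symm {β : PG Q ≃* PG Q} {x y : V} (h : Sends β x y) : Sends β.symm y x := by
  intro r
  rw [h (β.symm r), β.apply_symm_apply]

lemma Sends.conj {β : PG Q ≃* PG Q} {x y : V} (h : Sends β x y) {a a' : OmQ Q}
    (ha : β (pm a) = pm a') : Sends β (a.lin x) (a'.lin y) := by
  intro r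
  rw [mem_PP_conj, mem_PP_conj, h, map_mul, map_mul, map_inv, ha]

omit [Fintype F] hG in
lemma Sends.smul_right {β : PG Q ≃* PG Q} {x y : V} (h : Sends β x y) {c : F} (hc : c ≠ 0) :
    Sends β x (c • y) := by
  intro r
  rw [PP_smul hc]
  exact h r

omit [Fintype F] hG in
lemma Sends.smul_left {β : PG Q ≃* PG Q} {x y : V} (h : Sends β x y) {c : F} (hc : c ≠ 0) :
    Sends β (c • x) y := by
  intro r
  rw [PP_smul hc]
  exact h r

lemma Sends.unique {β : PG Q ≃* PG Q} {x y y' : V} (h : Sends β x y) (h' : Sends β x y')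
    (hy : Q y = 0) (hy'0 : y' ≠ 0) : ∃ c : F, y = c • y' := by
  apply PP_eq_imp hy hy'0
  ext r
  rw [← β.apply_symm_apply r, ← h, ← h']

lemma Sends.mapQQ_le (p : ℕ) [Fact p.Prime] [CharP F p] {β : PG Q ≃* PG Q} {x y : V} (h : Sends β x y)
    (hx0 : x ≠ 0) (hx : Q x = 0) (hy0 : y ≠ 0) (hy : Q y = 0) {r : PG Q} (hr : r ∈ QQ Q x) :
    β r ∈ QQ Q y := by
  have h1 : (QQ Q x).map β.toMonoidHom ≤ QQ Q y := by
    apply le_QQ_of_normal p hy0 hy ((QQ_isPGroup p x).map _)
    · rintro _ ⟨s, hs, rfl⟩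
      exact (h s).1 (QQ_le_PP hx hs)
    · rintro k hk _ ⟨s, hs, rfl⟩
      refine ⟨β.symm k * s * (β.symm k)⁻¹, QQ_normal hx hx0 ((h.symm k).1 hk) hs, ?_⟩
      simp
  exact h1 ⟨r, hr, rfl⟩

lemma Sends.mapQQ (p : ℕ) [Fact p.Prime] [CharP F p] {β : PG Q ≃* PG Q} {x y : V} (h : Sends β x y)
    (hx0 : x ≠ 0) (hx : Q x = 0) (hy0 : y ≠ 0) (hy : Q y = 0) (r : PG Q) :
    r ∈ QQ Q x ↔ β r ∈ QQ Q y := by
  refine ⟨fun hr => h.mapQQ_le p hx0 hx hy0 hy hr, fun hr => ?_⟩
  have := h.symm.mapQQ_le p hy0 hy hx0 hx hr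
  rwa [β.symm_apply_apply] at this

/-! ### `Q_u ∩ P_y` -/

lemma eo_fix_v {u v w : V} (h : HP Q u v) (hw : w ∈ perp2 Q u v) {c : F}
    (e : (eo Q u w).lin v = c • v) : w = 0 := by
  rw [mem_perp2] at hw
  rw [eo_lin h.Qu hw.1, h.uv, polar_comm Q w v, hw.2] at e
  have e1 := congrArg (polar Q u) e
  simp only [polar_add_right, polar_sub_right, polar_smul_right, h.uv, h.uu, hw.1, smul_eq_mul] at e1
  have hc1 : c = 1 := by linear_combination -e1
  have e2 := congrArg (polar Q v) e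
  simp only [polar_add_right, polar_sub_right, polar_smul_right, h.vu, h.vv, hw.2, smul_eq_mul] at e2
  have hQw : Q w = 0 := by linear_combination -e2
  rw [hc1, hQw] at e
  have : v + (0 : F) • u - (1 : F) • w - ((0 : F) * 1) • u - (1 : F) • v = -w := by module
  rw [e, sub_self] at this
  exact neg_eq_zero.1 this.symm

lemma QQ_inf_PP_HP {u v : V} (h : HP Q u v) {r : PG Q} (hr : r ∈ QQ Q u) (hr' : r ∈ PP Q v) : r = 1 := by
  obtain ⟨w, hw, rfl⟩ := hr
  rw [eo_proj h hw] at hr' ⊢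
  obtain ⟨c, hc⟩ := pm_mem_PP.1 hr'
  rw [eo_fix_v h (h.proj_mem w) hc, eo_zero, map_one]

lemma QQ_inf_PP {u y : V} (hu : Q u = 0) (hy : Q y = 0) (huy : polar Q u y ≠ 0) {r : PG Q}
    (hr : r ∈ QQ Q u) (hr' : r ∈ PP Q y) : r = 1 := by
  have h : HP Q u ((polar Q u y)⁻¹ • y) :=
    ⟨hu, by rw [QuadraticMap.map_smul, hy, smul_zero],
      by rw [polar_smul_right, smul_eq_mul, inv_mul_cancel₀ huy]⟩
  apply QQ_inf_PP_HP h hr
  rw [PP_smul (inv_ne_zero huy)]
  exact hr'

lemma exists_QQ_inf_PP {u y : V} (hu0 : u ≠ 0) (hu : Q u = 0) (hy : Q y = 0)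
    (huy : polar Q u y = 0) : ∃ r ∈ QQ Q u, r ∈ PP Q y ∧ r ≠ 1 := by
  obtain ⟨v, h⟩ := exists_HP hu0 hu
  by_cases hp : y - polar Q v y • u - polar Q u y • v = 0
  · have e : y = polar Q v y • u := by
      rw [huy, zero_smul, sub_zero, sub_eq_zero] at hp
      exact hp
    have hne := QQ_ne_bot hu0 hu
    obtain ⟨r, hr, hr1⟩ : ∃ r ∈ QQ Q u, r ≠ 1 := by
      by_contra hcon
      push Not at hcon
      exact hne ((Subgroup.eq_bot_iff_forall _).2 hcon)
    refine ⟨r, hr, ?_, hr1⟩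
    obtain ⟨g, rfl⟩ := pm_surj r
    obtain ⟨c, hc⟩ := pm_mem_PP.1 (QQ_le_PP hu hr)
    rw [pm_mem_PP]
    refine ⟨c, ?_⟩
    rw [e, map_smul, hc, smul_comm]
  · refine ⟨pm (eo Q u y), pm_eo_mem_QQ huy, ?_, ?_⟩
    · rw [pm_mem_PP]
      refine ⟨1, ?_⟩
      rw [eo_lin hu huy, huy, polar_self, hy]
      simp
    · intro h1
      rw [eo_proj h huy] at h1
      exact hp (eo_eq_one h (h.proj_mem y) h1)

/-- the relation "not orthogonal" is preserved -/
lemma Sends.not_perp (p : ℕ) [Fact p.Prime] [CharP F p] {β : PG Q ≃* PG Q} {x y x' y' : V}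
    (h : Sends β x x') (h' : Sends β y y')
    (hx0 : x ≠ 0) (hx : Q x = 0) (hx'0 : x' ≠ 0) (hx' : Q x' = 0) (hy : Q y = 0) (hy' : Q y' = 0)
    (hxy : polar Q x y ≠ 0) : polar Q x' y' ≠ 0 := by
  intro hcon
  obtain ⟨r, hr, hr', hr1⟩ := exists_QQ_inf_PP hx'0 hx' hy' hcon
  apply hr1
  have h1 : β.symm r ∈ QQ Q x := by
    rw [h.mapQQ p hx0 hx hx'0 hx', β.apply_symm_apply]; exact hr
  have h2 : β.symm r ∈ PP Q y := by
    rw [h' (β.symm r), β.apply_symm_apply]; exact hr'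
  have := QQ_inf_PP hx hy hxy h1 h2
  simpa using this

/-! ### Lemma F: `Q_u ∩ Q_s` -/

omit [Fintype F] [FiniteDimensional F V] in
lemma lin_aux {u s z w : V} {α β0 γ δ q : F} (hb0 : β0 ≠ 0) (f2 : u = α • s - β0 • z)
    (g2 : w = -q • u - γ • s + δ • z) : ∃ a b : F, w = a • u + b • s := by
  subst f2
  refine ⟨-q - δ * β0⁻¹, -γ + δ * β0⁻¹ * α, ?_⟩
  rw [g2]
  match_scalars <;> field_simp <;> ring

theorem QQ_inf_QQ {u v w s : V} (h : HP Q u v) (hw : w ∈ perp2 Q u v) (hw0 : w ≠ 0)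
    (hs : Q s = 0) (hsu : ∀ c : F, s ≠ c • u) (hmem : pm (eo Q u w) ∈ QQ Q s) :
    polar Q u s = 0 ∧ ∃ b : F, w = b • (s - polar Q v s • u) := by
  classical
  have hw' := mem_perp2.1 hw
  obtain ⟨z, hz, e⟩ := hmem
  obtain ⟨c, hc⟩ := pm_eq_iff.1 e
  -- a common fixed vector
  have hc1 : c = 1 := by
    have h7 := hG.dim
    have h4 := Cfsg.Agent.Lib.Helper13.O.finrank_orth hG.nd ({u, w, s, z} : Finset V)
    have hcard : ({u, w, s, z} : Finset V).card ≤ 4 := Finset.card_le_four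
    obtain ⟨x, hx, hx0⟩ := exists_ne_zero_of_finrank
      (A := Cfsg.Agent.Lib.Helper13.O.orth Q ({u, w, s, z} : Finset V)) (by omega)
    rw [Cfsg.Agent.Lib.Helper13.O.mem_orth] at hx
    have e1 := hc x
    rw [eo_fix_of_perp h.Qu hw'.1 (hx u (by simp)) (hx w (by simp)),
      eo_fix_of_perp hs hz (hx s (by simp)) (hx z (by simp))] at e1
    have : (1 : F) • x = c • x := by rw [one_smul]; exact e1
    exact (smul_left_injective F hx0 this).symm
  have E : ∀ x, (eo Q u w).lin x = (eo Q s z).lin x := by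
    intro x
    rw [hc x, hc1, one_smul]
  have hss : polar Q s s = 0 := by rw [polar_self, hs]; simp
  -- `s` is fixed
  have e1 := E s
  rw [eo_fix_of_perp hs hz hss (by rw [polar_comm]; exact hz), eo_lin h.Qu hw'.1] at e1
  have e2 : (polar Q w s - Q w * polar Q u s) • u - polar Q u s • w = 0 := by
    have : s + polar Q w s • u - polar Q u s • w - (Q w * polar Q u s) • u - s
        = (polar Q w s - Q w * polar Q u s) • u - polar Q u s • w := by module
    rw [← this, e1, sub_self]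
  have e3 := congrArg (polar Q v) e2
  simp only [polar_sub_right, polar_smul_right, h.vu, hw'.2, smul_eq_mul, polar_zero_right] at e3
  have e4 : polar Q w s - Q w * polar Q u s = 0 := by linear_combination e3
  rw [e4, zero_smul, zero_sub, neg_eq_zero] at e2
  have hus : polar Q u s = 0 := (smul_eq_zero.1 e2).resolve_right hw0
  refine ⟨hus, ?_⟩
  -- a vector `x0 ∈ W` with `polar w x0 = 1`
  obtain ⟨x1, hx1⟩ := polar_nondeg_exists hG.nd hw0
  set x0 := x1 - polar Q v x1 • u - polar Q u x1 • v with hx0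
  have hx0W := mem_perp2.1 (h.proj_mem x1)
  rw [← hx0] at hx0W
  have hwx0 : polar Q w x0 = 1 := by
    rw [hx0]
    simp only [polar_sub_right, polar_smul_right, polar_comm Q w u, polar_comm Q w v, hw'.1, hw'.2,
      polar_comm Q w x1, hx1, smul_eq_mul]
    ring
  have f1 := E x0
  rw [eo_lin h.Qu hw'.1, eo_lin hs hz, hx0W.1, hwx0] at f1
  have f2 : u = (polar Q z x0 - Q z * polar Q s x0) • s - polar Q s x0 • z := by
    have a1 : x0 + (1 : F) • u - (0 : F) • w - (Q w * 0) • u - x0 = u := by module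
    have a2 : x0 + polar Q z x0 • s - polar Q s x0 • z - (Q z * polar Q s x0) • s - x0
        = (polar Q z x0 - Q z * polar Q s x0) • s - polar Q s x0 • z := by module
    rw [← a1, f1, a2]
  have hb0 : polar Q s x0 ≠ 0 := by
    intro h0
    rw [h0, zero_smul, sub_zero, mul_zero, sub_zero] at f2
    have ha : polar Q z x0 ≠ 0 := by
      intro h1
      rw [h1, zero_smul] at f2
      exact h.u0 f2
    apply hsu (polar Q z x0)⁻¹
    rw [f2, smul_smul, inv_mul_cancel₀ ha, one_smul]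
  have g1 := E v
  rw [eo_lin h.Qu hw'.1, eo_lin hs hz, h.uv, polar_comm Q w v, hw'.2] at g1
  have g2 : w = -(Q w) • u - (polar Q z v - Q z * polar Q s v) • s + polar Q s v • z := by
    have a1 : v + (0 : F) • u - (1 : F) • w - (Q w * 1) • u - v = -w - Q w • u := by module
    have a2 : v + polar Q z v • s - polar Q s v • z - (Q z * polar Q s v) • s - v
        = (polar Q z v - Q z * polar Q s v) • s - polar Q s v • z := by module
    rw [g1, a2] at a1
    calc w = -((polar Q z v - Q z * polar Q s v) • s - polar Q s v • z) - Q w • u := by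
          rw [a1]; abel
      _ = _ := by module
  obtain ⟨a, b, hab⟩ := lin_aux hb0 f2 g2
  refine ⟨b, ?_⟩
  have k1 := hw'.2
  rw [hab, polar_add_right, polar_smul_right, polar_smul_right, h.vu, smul_eq_mul, smul_eq_mul,
    mul_one] at k1
  have ha : a = -(b * polar Q v s) := by linear_combination k1
  rw [hab, ha]
  module

end Cfsg.Agent.Lib.Helper45.OAut
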