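import Mathlib
import Cfsg.Agent.Lib.Helper45.OAutH

set_option autoImplicit false
set_option linter.unusedSimpArgs false
set_option linter.unusedVariables false
set_option linter.unusedSectionVars false

/-! Automorphisms of `PΩ`: the map `φ` induced on `Q_u`, and the semilinear map `T`. -/

namespace Cfsg.Agent.Lib.Helper45.OAut

open QuadraticMap Module
open Cfsg.Agent.Lib.Helper44 Cfsg.Agent.Lib.Helper5

variable {F V : Type*} [Field F] [AddCommGroup V] [Module F V]
variable [Fintype F] [FiniteDimensional F V]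
variable {Q : QuadraticForm F V} [hG : Good Q]

section phi

variable {u v : V} (h : HP Q u v) (β : PG Q ≃* PG Q) (hβ : ∀ r, r ∈ QQ Q u ↔ β r ∈ QQ Q u)

include h hβ in
lemma exists_phi (w : perp2 Q u v) : ∃ w' : perp2 Q u v, β (pm (eo Q u w)) = pm (eo Q u w') := by
  obtain ⟨z, hz, e⟩ := (hβ _).1 (pm_eo_mem_QQ (mem_perp2.1 w.2).1)
  exact ⟨⟨_, h.proj_mem z⟩, by rw [e, eo_proj h hz]⟩

lemma hβ_symm {u : V} {β : PG Q ≃* PG Q} (hβ : ∀ r, r ∈ QQ Q u ↔ β r ∈ QQ Q u) :
    ∀ r, r ∈ QQ Q u ↔ β.symm r ∈ QQ Q u := by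
  intro r
  rw [hβ (β.symm r), β.apply_symm_apply]

/-- the underlying function of `phi` -/
noncomputable def phiFun (w : perp2 Q u v) : perp2 Q u v := Classical.choose (exists_phi h β hβ w)

lemma phiFun_spec (w : perp2 Q u v) : β (pm (eo Q u w)) = pm (eo Q u (phiFun h β hβ w)) :=
  Classical.choose_spec (exists_phi h β hβ w)

/-- the additive bijection of `⟨u,v⟩^⊥` induced by `β` on `Q_u` -/
noncomputable def phi : perp2 Q u v ≃+ perp2 Q u v where
  toFun := phiFun h β hβ
  invFun := phiFun h β.symm (hβ_symm hβ)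
  left_inv w := by
    apply Subtype.ext
    apply eo_inj h (Subtype.mem _) w.2
    rw [← phiFun_spec h β.symm (hβ_symm hβ), ← phiFun_spec h β hβ, β.symm_apply_apply]
  right_inv w := by
    apply Subtype.ext
    apply eo_inj h (Subtype.mem _) w.2
    rw [← phiFun_spec h β hβ, ← phiFun_spec h β.symm (hβ_symm hβ), β.apply_symm_apply]
  map_add' a b := by
    apply Subtype.ext
    apply eo_inj h (Subtype.mem _) (Subtype.mem _)
    rw [← phiFun_spec h β hβ, Submodule.coe_add, Submodule.coe_add,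
      eo_add (mem_perp2.1 a.2).1 (mem_perp2.1 b.2).1,
      eo_add (mem_perp2.1 (Subtype.mem _)).1 (mem_perp2.1 (Subtype.mem _)).1, map_mul, map_mul, map_mul,
      ← phiFun_spec h β hβ a, ← phiFun_spec h β hβ b]

lemma phi_spec (w : perp2 Q u v) : β (pm (eo Q u w)) = pm (eo Q u (phi h β hβ w)) :=
  phiFun_spec h β hβ w

end phi

/-- the restriction of the form to `⟨u,v⟩^⊥` -/
noncomputable def QW (Q : QuadraticForm F V) (u v : V) : QuadraticForm F (perp2 Q u v) :=
  Q.comp (perp2 Q u v).subtype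

omit [Fintype F] [FiniteDimensional F V] hG in
lemma QW_apply {u v : V} (x : perp2 Q u v) : QW Q u v x = Q x := rfl

omit [Fintype F] [FiniteDimensional F V] hG in
lemma QW_polar {u v : V} (x y : perp2 Q u v) : polar (QW Q u v) x y = polar Q x y := rfl

lemma QW_nondeg {u v : V} (h : HP Q u v) : (polarBilin (QW Q u v)).Nondegenerate := by
  apply nondeg_of_sep
  intro x hx
  obtain ⟨c, hc⟩ := (nice_perp2 h.Qu h.Qv h.uv).sep 0 (Submodule.zero_mem _) x x.2 (by
    intro z hz _
    have := hx ⟨z, hz⟩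
    rw [QW_polar, polar_comm] at this
    exact this)
  apply Subtype.ext
  rw [hc, smul_zero]; rfl

/-- the hypotheses of the semilinearity theorem -/
theorem phi_sing (p : ℕ) [Fact p.Prime] [CharP F p] {u v : V} (h : HP Q u v) (β : PG Q ≃* PG Q)
    (hS : ∀ x, x ≠ 0 → Q x = 0 → ∃ y, y ≠ 0 ∧ Q y = 0 ∧ Sends β x y) (hu : Sends β u u)
    (hβ : ∀ r, r ∈ QQ Q u ↔ β r ∈ QQ Q u) (s : perp2 Q u v) (hs : Q (s : V) = 0) :
    Q (phi h β hβ s : V) = 0 ∧ ∀ t : F, ∃ t' : F, phi h β hβ (t • s) = t' • phi h β hβ s := by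
  by_cases hs0 : s = 0
  · subst hs0
    simp
  have hs0' : (s : V) ≠ 0 := fun h0 => hs0 (Subtype.ext h0)
  have hsW := mem_perp2.1 s.2
  obtain ⟨s1, hs10, hs1, hsend⟩ := hS s hs0' hs
  have hs1u : ∀ c : F, s1 ≠ c • u := by
    intro c hc
    have hc0 : c ≠ 0 := by
      rintro rfl
      rw [zero_smul] at hc
      exact hs10 hc
    have h1 : Sends β s u := by
      have := hsend.smul_right (inv_ne_zero hc0)
      rwa [hc, smul_smul, inv_mul_cancel₀ hc0, one_smul] at this
    obtain ⟨d, hd⟩ := h1.symm.unique hu.symm hs h.u0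
    have := hsW.2
    rw [hd, polar_smul_right, h.vu, smul_eq_mul, mul_one] at this
    rw [this, zero_smul] at hd
    exact hs0' hd
  set s1W := s1 - polar Q v s1 • u with hs1W
  have key : ∀ t : F, (polar Q u s1 = 0 ∨ (phi h β hβ (t • s) : V) = 0) ∧
      ∃ b : F, (phi h β hβ (t • s) : V) = b • s1W := by
    intro t
    by_cases h0 : (phi h β hβ (t • s) : V) = 0
    · exact ⟨Or.inr h0, 0, by rw [h0, zero_smul]⟩
    have hmem : pm (eo Q u ((t • s : perp2 Q u v) : V)) ∈ QQ Q (s : V) := by
      rw [Submodule.coe_smul, eo_swap h.Qu (by rw [QuadraticMap.map_smul, hs, smul_zero])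
        (by rw [polar_smul_right, hsW.1, smul_zero]),
        eo_smul_left t hs (by rw [polar_neg_right, polar_comm, hsW.1, neg_zero])]
      apply pm_eo_mem_QQ
      rw [polar_smul_right, polar_neg_right, polar_comm, hsW.1]; simp
    have h2 := (hsend.mapQQ p hs0' hs hs10 hs1 _).1 hmem
    rw [phi_spec h β hβ] at h2
    obtain ⟨h3, b, hb⟩ := QQ_inf_QQ h (Subtype.mem _) h0 hs1 hs1u h2
    exact ⟨Or.inl h3, b, hb⟩
  have hφs0 : (phi h β hβ s : V) ≠ 0 := by
    intro h0
    apply hs0
    have : phi h β hβ s = 0 := Subtype.ext h0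
    simpa using this
  obtain ⟨hor, b1, hb1⟩ := key 1
  rw [one_smul] at hor hb1
  have hus1 : polar Q u s1 = 0 := hor.resolve_right hφs0
  have hb10 : b1 ≠ 0 := by
    rintro rfl
    rw [zero_smul] at hb1
    exact hφs0 hb1
  constructor
  · rw [hb1, QuadraticMap.map_smul, hs1W, sub_eq_add_neg, ← neg_smul, Q_add_smul, hs1, h.Qu,
      polar_comm Q s1 u, hus1]
    simp
  · intro t
    obtain ⟨-, b, hb⟩ := key t
    refine ⟨b * b1⁻¹, ?_⟩
    apply Subtype.ext
    rw [hb, Submodule.coe_smul, hb1, smul_smul, mul_assoc, inv_mul_cancel₀ hb10, mul_one]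

/-! ### the map `T` -/

section TT

variable {u v : V} (h : HP Q u v)

omit [Fintype F] [FiniteDimensional F V] hG in
/-- the projection to `⟨u,v⟩^⊥` -/
noncomputable def prW : V →ₗ[F] perp2 Q u v :=
  LinearMap.codRestrict (perp2 Q u v)
    (LinearMap.id - (polarBilin Q v).smulRight u - (polarBilin Q u).smulRight v) (fun x => h.proj_mem x)

omit [Fintype F] [FiniteDimensional F V] hG in
lemma prW_coe (x : V) : (prW h x : V) = x - polar Q v x • u - polar Q u x • v := rfl

omit [Fintype F] [FiniteDimensional F V] hG in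
lemma decomp (x : V) : x = polar Q v x • u + polar Q u x • v + (prW h x : V) := by
  rw [prW_coe]; abel

omit [Fintype F] [FiniteDimensional F V] hG in
include h in
lemma Q_abw (a b : F) {w : V} (hw : w ∈ perp2 Q u v) : Q (a • u + b • v + w) = a * b + Q w := by
  have hw' := mem_perp2.1 hw
  rw [QuadraticMap.map_add (⇑Q), QuadraticMap.map_add (⇑Q), QuadraticMap.map_smul, QuadraticMap.map_smul,
    h.Qu, h.Qv, polar_smul_left, polar_smul_right, h.uv, polar_add_left, polar_smul_left,
    polar_smul_left, hw'.1, hw'.2]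
  simp only [smul_eq_mul]
  ring

omit [Fintype F] [FiniteDimensional F V] hG in
include h in
lemma polar_u_abw (a b : F) {w : V} (hw : w ∈ perp2 Q u v) : polar Q u (a • u + b • v + w) = b := by
  have hw' := mem_perp2.1 hw
  rw [polar_add_right, polar_add_right, polar_smul_right, polar_smul_right, h.uu, h.uv, hw'.1]
  simp

omit [Fintype F] [FiniteDimensional F V] hG in
include h in
lemma polar_v_abw (a b : F) {w : V} (hw : w ∈ perp2 Q u v) : polar Q v (a • u + b • v + w) = a := by
  have hw' := mem_perp2.1 hw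
  rw [polar_add_right, polar_add_right, polar_smul_right, polar_smul_right, h.vu, h.vv, hw'.2]
  simp

variable (φ : perp2 Q u v ≃+ perp2 Q u v) (σ : F ≃+* F) (c : F)

omit [Fintype F] [FiniteDimensional F V] hG in
/-- the semilinear map -/
noncomputable def TT (x : V) : V :=
  (c * σ (polar Q v x)) • u + σ (polar Q u x) • v + (φ (prW h x) : V)

omit [Fintype F] [FiniteDimensional F V] hG in
lemma TT_add (x y : V) : TT h φ σ c (x + y) = TT h φ σ c x + TT h φ σ c y := by
  unfold TT
  rw [polar_add_right, polar_add_right, map_add, map_add, map_add, map_add, Submodule.coe_add]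
  module

omit [Fintype F] [FiniteDimensional F V] hG in
lemma TT_sub (x y : V) : TT h φ σ c (x - y) = TT h φ σ c x - TT h φ σ c y := by
  have := TT_add h φ σ c (x - y) y
  rw [sub_add_cancel] at this
  rw [this, add_sub_cancel_right]

variable (hσ : ∀ (t : F) (x : perp2 Q u v), φ (t • x) = σ t • φ x)
  (hc : ∀ x : perp2 Q u v, Q (φ x : V) = c * σ (Q (x : V)))

omit [Fintype F] [FiniteDimensional F V] hG in
include hσ in
lemma TT_smul (t : F) (x : V) : TT h φ σ c (t • x) = σ t • TT h φ σ c x := by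
  unfold TT
  rw [polar_smul_right, polar_smul_right, smul_eq_mul, smul_eq_mul, map_mul, map_mul,
    (prW h).map_smul, hσ, Submodule.coe_smul]
  module

omit [Fintype F] [FiniteDimensional F V] hG in
include hc in
lemma Q_TT (x : V) : Q (TT h φ σ c x) = c * σ (Q x) := by
  unfold TT
  rw [Q_abw h _ _ (Subtype.mem _), hc]
  conv_rhs => rw [decomp h x, Q_abw h _ _ (Subtype.mem _)]
  rw [map_add, map_mul]
  ring

omit [Fintype F] [FiniteDimensional F V] hG in
include hc in
lemma polar_TT (x y : V) : polar Q (TT h φ σ c x) (TT h φ σ c y) = c * σ (polar Q x y) := by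
  unfold polar
  rw [← TT_add, Q_TT h φ σ c hc, Q_TT h φ σ c hc, Q_TT h φ σ c hc, map_sub, map_sub]
  ring

omit [Fintype F] [FiniteDimensional F V] hG in
lemma TT_u : TT h φ σ c u = c • u := by
  have : prW h u = 0 := by
    apply Subtype.ext
    rw [prW_coe, h.vu, h.uu]; simp
  unfold TT
  rw [this, h.vu, h.uu]; simp

omit [Fintype F] [FiniteDimensional F V] hG in
lemma TT_v : TT h φ σ c v = v := by
  have : prW h v = 0 := by
    apply Subtype.ext
    rw [prW_coe, h.vv, h.uv]; simp
  unfold TT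
  rw [this, h.vv, h.uv]; simp

omit [Fintype F] [FiniteDimensional F V] hG in
lemma TT_w (w : perp2 Q u v) : TT h φ σ c w = φ w := by
  have hw := mem_perp2.1 w.2
  have : prW h w = w := by
    apply Subtype.ext
    rw [prW_coe, hw.1, hw.2]; simp
  unfold TT
  rw [this, hw.1, hw.2]; simp

omit [Fintype F] [FiniteDimensional F V] hG in
lemma TT_inj (hc0 : c ≠ 0) : Function.Injective (TT h φ σ c) := by
  intro x y hxy
  have e1 := congrArg (polar Q u) hxy
  have e2 := congrArg (polar Q v) hxy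
  unfold TT at e1 e2 hxy
  rw [polar_u_abw h _ _ (Subtype.mem _), polar_u_abw h _ _ (Subtype.mem _)] at e1
  rw [polar_v_abw h _ _ (Subtype.mem _), polar_v_abw h _ _ (Subtype.mem _)] at e2
  have e1' := σ.injective e1
  have e2' := σ.injective (mul_left_cancel₀ hc0 e2)
  rw [e1', e2'] at hxy
  have e3 := φ.injective (Subtype.ext (add_left_cancel hxy))
  rw [decomp h x, decomp h y, e1', e2', e3]

include hσ hc in
/-- conjugating an Eichler transformation by `T` -/
lemma TT_eo (hc0 : c ≠ 0) {a z : V} (ha : Q a = 0) (haz : polar Q a z = 0) (x : V) :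
    (eo Q (c⁻¹ • TT h φ σ c a) (TT h φ σ c z)).lin (TT h φ σ c x) = TT h φ σ c ((eo Q a z).lin x) := by
  rw [eo_lin ha haz, eo_lin (by rw [QuadraticMap.map_smul, Q_TT h φ σ c hc, ha]; simp)
    (by rw [polar_smul_left, polar_TT h φ σ c hc, haz]; simp)]
  rw [TT_sub, TT_sub, TT_add,
    TT_smul h φ σ c hσ, TT_smul h φ σ c hσ, TT_smul h φ σ c hσ, polar_smul_left,
    polar_TT h φ σ c hc, polar_TT h φ σ c hc, Q_TT h φ σ c hc]
  simp only [map_neg, map_mul, smul_eq_mul]
  match_scalars <;> field_simp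

end TT

end Cfsg.Agent.Lib.Helper45.OAut
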