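import Mathlib
import Cfsg.Agent.Lib.Helper45.OAutI

set_option autoImplicit false
set_option linter.unusedSimpArgs false
set_option linter.unusedVariables false
set_option linter.unusedSectionVars false

/-! Automorphisms of `PΩ`: every automorphism is induced by a semisimilarity. -/

namespace Cfsg.Agent.Lib.Helper45.OAut

open QuadraticMap Module
open Cfsg.Agent.Lib.Helper44 Cfsg.Agent.Lib.Helper5

variable {F V : Type*} [Field F] [AddCommGroup V] [Module F V]
variable [Fintype F] [FiniteDimensional F V]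
variable {Q : QuadraticForm F V} [hG : Good Q]

/-- `β` is induced by the semisimilarity `T` -/
def Ind (β : PG Q ≃* PG Q) (σ : F ≃+* F) (T : V → V) (c : F) : Prop :=
  c ≠ 0 ∧ Function.Bijective T ∧ (∀ x y, T (x + y) = T x + T y) ∧ (∀ (t : F) x, T (t • x) = σ t • T x) ∧
  (∀ x, Q (T x) = c * σ (Q x)) ∧
  ∀ g g' : OmQ Q, (∀ x, g'.lin (T x) = T (g.lin x)) → β (pm g) = pm g'

lemma eo_coe {a z : V} (ha : Q a = 0) (haz : polar Q a z = 0) :
    (eo Q a z).1 = eichlerO Q a z ha haz := by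
  unfold eo
  rw [dif_pos ⟨ha, haz⟩]
  rfl

/-- `Ω` is generated by `Q_u` and `Q_v` -/
theorem gen_top {u v : V} (h : HP Q u v) (H : Subgroup (OmQ Q))
    (hu : ∀ w, polar Q u w = 0 → eo Q u w ∈ H) (hv : ∀ w, polar Q v w = 0 → eo Q v w ∈ H) : H = ⊤ := by
  let linHom : OmQ Q →* (V ≃ₗ[F] V) := (OQ Q).subtype.comp (Subgroup.subtype _)
  set K := H.map linHom with hK
  have hu' : u ∈ Cfsg.Agent.Lib.Helper13.O.UU Q K := by
    refine ⟨h.Qu, fun w h1 h2 => ⟨eo Q u w, hu w h2, ?_⟩⟩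
    change ((eo Q u w).1 : V ≃ₗ[F] V) = _
    rw [eo_coe h1 h2]; rfl
  have hv' : v ∈ Cfsg.Agent.Lib.Helper13.O.UU Q K := by
    refine ⟨h.Qv, fun w h1 h2 => ⟨eo Q v w, hv w h2, ?_⟩⟩
    change ((eo Q v w).1 : V ≃ₗ[F] V) = _
    rw [eo_coe h1 h2]; rfl
  have hall := Cfsg.Agent.Lib.Helper13.O.UU_all hG.nd hu' hv' (by rw [h.uv]; exact one_ne_zero)
  have hle := EO_le_commutator hG.nd hG.five
  have key : ∀ y ∈ EO Q, ∀ hy : y ∈ commutator ↥(OQ Q), (⟨y, hy⟩ : OmQ Q) ∈ H := by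
    intro y hy
    induction hy using Subgroup.closure_induction with
    | mem y hy =>
      intro hy'
      obtain ⟨a, z, ha, haz, rfl⟩ := hy
      obtain ⟨g, hgH, e⟩ := (hall a ha).2 z ha haz
      have : g = ⟨eichlerO Q a z ha haz, hy'⟩ := Subtype.ext (Subtype.ext e)
      rwa [← this]
    | one => intro _; exact one_mem _
    | mul a b ha hb iha ihb =>
      intro _
      exact mul_mem (iha (hle ha)) (ihb (hle hb))
    | inv a ha iha =>
      intro _
      exact inv_mem (iha (hle ha))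
  rw [eq_top_iff]
  rintro ⟨g, hg⟩ -
  exact key g (commutator_le_EO hG.nd hG.five hg) hg

lemma exists_ns_add {u v w : V} (y1 : V) :
    ∃ z, polar Q u z = 0 ∧ polar Q v z = 0 ∧ polar Q w z = 0 ∧ Q (y1 + z) ≠ 0 := by
  classical
  by_contra hcon
  push Not at hcon
  have h7 := hG.dim
  have hc : ({u, v, w} : Finset V).card ≤ 3 := Finset.card_le_three
  obtain ⟨a, ha, b, hb, hab⟩ := Cfsg.Agent.Lib.Helper13.O.exists_pair_ne hG.nd {u, v, w} (by omega)
  rw [Cfsg.Agent.Lib.Helper13.O.mem_orth] at ha hb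
  have e0 := hcon 0 (by simp) (by simp) (by simp)
  have e1 := hcon a (ha u (by simp)) (ha v (by simp)) (ha w (by simp))
  have e2 := hcon b (hb u (by simp)) (hb v (by simp)) (hb w (by simp))
  have e3 := hcon (a + b) (by rw [polar_add_right, ha u (by simp), hb u (by simp), add_zero])
    (by rw [polar_add_right, ha v (by simp), hb v (by simp), add_zero])
    (by rw [polar_add_right, ha w (by simp), hb w (by simp), add_zero])
  apply hab
  rw [add_zero] at e0
  rw [QuadraticMap.map_add (⇑Q), e0] at e1 e2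
  rw [QuadraticMap.map_add (⇑Q), e0, QuadraticMap.map_add (⇑Q) a b, polar_add_right] at e3
  linear_combination e3 - e1 - e2

lemma exists_x {u v w : V} (h : HP Q u v) (hw : w ∈ perp2 Q u v) :
    ∃ x, Q x = 0 ∧ polar Q u x ≠ 0 ∧ polar Q v x ≠ 0 ∧ polar Q u ((eo Q v w).lin x) ≠ 0 := by
  have hw' := mem_perp2.1 hw
  obtain ⟨y1, hy1W, hy1⟩ : ∃ y1 ∈ perp2 Q u v, polar Q w y1 = Q w := by
    by_cases hw0 : w = 0
    · exact ⟨0, Submodule.zero_mem _, by rw [hw0]; simp⟩
    · obtain ⟨x0, hx0⟩ := polar_nondeg_exists hG.nd hw0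
      refine ⟨Q w • (x0 - polar Q v x0 • u - polar Q u x0 • v),
        Submodule.smul_mem _ _ (h.proj_mem x0), ?_⟩
      simp only [polar_smul_right, polar_sub_right, polar_comm Q w u, polar_comm Q w v, hw'.1, hw'.2,
        polar_comm Q w x0, hx0, smul_eq_mul]
      ring
  obtain ⟨z, hz1, hz2, hz3, hz4⟩ := exists_ns_add (Q := Q) (u := u) (v := v) (w := w) y1
  set y0 := y1 + z with hy0
  have hy0W : y0 ∈ perp2 Q u v := Submodule.add_mem _ hy1W (mem_perp2.2 ⟨hz1, hz2⟩)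
  have hwy0 : polar Q w y0 = Q w := by rw [hy0, polar_add_right, hy1, hz3, add_zero]
  set x := (1 : F) • u + (-Q y0) • v + y0 with hx
  have hux : polar Q u x = -Q y0 := polar_u_abw h _ _ hy0W
  have hvx : polar Q v x = 1 := polar_v_abw h _ _ hy0W
  have hwx : polar Q w x = Q w := by
    rw [hx, polar_add_right, polar_add_right, polar_smul_right, polar_smul_right, polar_comm Q w u,
      polar_comm Q w v, hw'.1, hw'.2, hwy0]
    simp
  refine ⟨x, ?_, ?_, ?_, ?_⟩
  · rw [hx, Q_abw h _ _ hy0W]; ring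
  · rw [hux]; exact neg_ne_zero.2 hz4
  · rw [hvx]; exact one_ne_zero
  · rw [eo_lin h.Qv hw'.2, hvx, hwx]
    simp only [polar_add_right, polar_sub_right, polar_smul_right, hux, h.uv, hw'.1, smul_eq_mul]
    intro h0
    apply hz4
    linear_combination -h0

/-- the theorem for a normalised automorphism -/
theorem normalized (p : ℕ) [Fact p.Prime] [CharP F p] {u v : V} (h : HP Q u v) (β : PG Q ≃* PG Q)
    (hS : ∀ x, x ≠ 0 → Q x = 0 → ∃ y, y ≠ 0 ∧ Q y = 0 ∧ Sends β x y)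
    (hu : Sends β u u) (hv : Sends β v v) : ∃ (σ : F ≃+* F) (T : V → V) (c : F), Ind β σ T c := by
  have hβ := hu.mapQQ p h.u0 h.Qu h.u0 h.Qu
  have hβv := hv.mapQQ p h.v0 h.Qv h.v0 h.Qv
  set φ := phi h β hβ with hφ
  have hsing := phi_sing p h β hS hu hβ
  have h5 : 5 ≤ finrank F (perp2 Q u v) := finrank_perp2_ge u v
  obtain ⟨σ, hσ⟩ := sl_semilinear (QW_nondeg h) h5 φ (fun s hs => (hsing s hs).2)
  obtain ⟨c, hc0, hc⟩ := sl_similarity (QW_nondeg h) h5 φ (fun s hs => (hsing s hs).1) σ hσ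
  have hc' : ∀ x : perp2 Q u v, Q (φ x : V) = c * σ (Q (x : V)) := hc
  set T := TT h φ σ c with hT
  have Tu : T u = c • u := TT_u h φ σ c
  have Tv : T v = v := TT_v h φ σ c
  have Teo := fun {a z : V} (ha : Q a = 0) (haz : polar Q a z = 0) (x : V) =>
    TT_eo h φ σ c hσ hc' hc0 ha haz x
  have Tsmul := TT_smul h φ σ c hσ
  have cu : c⁻¹ • T u = u := by rw [Tu, smul_smul, inv_mul_cancel₀ hc0, one_smul]
  -- A
  have A : ∀ w : perp2 Q u v, β (pm (eo Q u w)) = pm (eo Q u (T w)) := by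
    intro w
    rw [phi_spec h β hβ, hT, TT_w]
  have A' : ∀ (w : perp2 Q u v) (x : V), (eo Q u (T w)).lin (T x) = T ((eo Q u w).lin x) := by
    intro w x
    have := Teo h.Qu (mem_perp2.1 w.2).1 x
    rwa [← hT, cu] at this
  -- B
  have B : ∀ x, Q x = 0 → polar Q u x ≠ 0 → Sends β x (T x) := by
    intro x hx hux
    set b := polar Q u x with hb
    set y := b⁻¹ • x with hy
    have hQy : Q y = 0 := by rw [hy, QuadraticMap.map_smul, hx, smul_zero]
    have huy : polar Q u y = 1 := by rw [hy, polar_smul_right, ← hb, smul_eq_mul, inv_mul_cancel₀ hux]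
    have hmv := eo_move h hQy huy
    have hw0 : polar Q u (v - y) = 0 := by rw [polar_sub_right, h.uv, huy, sub_self]
    rw [eo_proj h hw0] at hmv
    have s1 := hv.conj (A ⟨_, h.proj_mem (v - y)⟩)
    rw [hmv] at s1
    have e1 := A' ⟨_, h.proj_mem (v - y)⟩ v
    rw [Tv, hmv] at e1
    rw [e1] at s1
    have ex : x = b • y := by rw [hy, smul_smul, mul_inv_cancel₀ hux, one_smul]
    have s2 := (s1.smul_left hux).smul_right (c := σ b) (by simpa using hux)
    rw [← Tsmul, ← ex] at s2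
    exact s2
  -- C
  have Cc : ∀ w : perp2 Q u v, β (pm (eo Q v w)) = pm (eo Q v (c⁻¹ • T w)) := by
    intro w
    have hw := mem_perp2.1 w.2
    obtain ⟨w', hw', e⟩ := (hβv _).1 (pm_eo_mem_QQ hw.2)
    obtain ⟨x, hQx, hux, hvx, hux'⟩ := exists_x h w.2
    have s1 := B x hQx hux
    have s2 := B _ (by rw [OmQ.Q_lin]; exact hQx) hux'
    have s3 := s1.conj e
    have hTx0 : T x ≠ 0 := by
      intro h0
      have h1 : polar Q (T u) (T x) = c * σ (polar Q u x) := polar_TT h φ σ c hc' u x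
      rw [h0, polar_zero_right] at h1
      rcases mul_eq_zero.1 h1.symm with h2 | h2
      · exact hc0 h2
      · exact hux (by simpa using h2)
    obtain ⟨d, hd⟩ := s2.unique s3 (by
      rw [hT, Q_TT h φ σ c hc', OmQ.Q_lin, hQx]; simp) ((eo Q v w').lin_ne_zero hTx0)
    have e2 := Teo h.Qv hw.2 x
    rw [← hT, Tv] at e2
    have hpol : polar Q v (T w) = 0 := by
      have h1 : polar Q (T v) (T w) = c * σ (polar Q v w) := polar_TT h φ σ c hc' v w
      rw [Tv, hw.2] at h1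
      simpa using h1
    rw [eo_smul_left c⁻¹ h.Qv hpol] at e2
    have hpol' : polar Q v (c⁻¹ • T w) = 0 := by rw [polar_smul_right, hpol, smul_zero]
    have hk : pm ((eo Q v w')⁻¹ * eo Q v (c⁻¹ • T w)) = 1 := by
      apply QQ_inf_PP h.Qv (y := T x) (by rw [hT, Q_TT h φ σ c hc', hQx]; simp)
      · have h1 : polar Q (T v) (T x) = c * σ (polar Q v x) := polar_TT h φ σ c hc' v x
        rw [Tv] at h1
        rw [h1]
        exact mul_ne_zero hc0 (by simpa using hvx)
      · rw [map_mul, map_inv]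
        exact mul_mem (inv_mem (pm_eo_mem_QQ hw')) (pm_eo_mem_QQ hpol')
      · rw [pm_mem_PP]
        refine ⟨d, ?_⟩
        rw [OmQ.lin_mul, e2, hd, map_smul, inv_lin_lin]
    rw [map_mul, map_inv, inv_mul_eq_one] at hk
    rw [e, hk]
  have C' : ∀ (w : perp2 Q u v) (x : V), (eo Q v (c⁻¹ • T w)).lin (T x) = T ((eo Q v w).lin x) := by
    intro w x
    have hw := mem_perp2.1 w.2
    have e2 := Teo h.Qv hw.2 x
    rw [← hT, Tv] at e2
    have hpol : polar Q v (T w) = 0 := by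
      have h1 : polar Q (T v) (T w) = c * σ (polar Q v w) := polar_TT h φ σ c hc' v w
      rw [Tv, hw.2] at h1
      simpa using h1
    rwa [eo_smul_left c⁻¹ h.Qv hpol] at e2
  -- D
  have Tinj : Function.Injective T := TT_inj h φ σ c hc0
  have : Finite V := Module.finite_of_finite F
  have Tbij : Function.Bijective T := Finite.injective_iff_bijective.1 Tinj
  let H : Subgroup (OmQ Q) :=
    { carrier := {g | ∃ g' : OmQ Q, (∀ x, g'.lin (T x) = T (g.lin x)) ∧ β (pm g) = pm g'}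
      mul_mem' := by
        rintro a b ⟨a', ha1, ha2⟩ ⟨b', hb1, hb2⟩
        refine ⟨a' * b', fun x => ?_, by rw [map_mul, map_mul, map_mul, ha2, hb2]⟩
        rw [OmQ.lin_mul, OmQ.lin_mul, hb1, ha1]
      one_mem' := ⟨1, fun x => rfl, by simp⟩
      inv_mem' := by
        rintro a ⟨a', ha1, ha2⟩
        refine ⟨a'⁻¹, fun x => ?_, by rw [map_inv, map_inv, map_inv, ha2]⟩
        have := ha1 (a⁻¹.lin x)
        rw [lin_inv_lin] at this
        rw [← this, inv_lin_lin] }
  have hH : H = ⊤ := by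
    apply gen_top h
    · intro w hw
      rw [eo_proj h hw]
      exact ⟨_, A' ⟨_, h.proj_mem w⟩, A ⟨_, h.proj_mem w⟩⟩
    · intro w hw
      have e : eo Q v w = eo Q v (w - polar Q v w • u - polar Q u w • v) := by
        rw [eo_proj h.symm hw]
        congr 1
        abel
      rw [e]
      exact ⟨_, C' ⟨_, h.proj_mem w⟩, Cc ⟨_, h.proj_mem w⟩⟩
  refine ⟨σ, T, c, hc0, Tbij, TT_add h φ σ c, Tsmul, Q_TT h φ σ c hc', ?_⟩
  intro g g' hgg
  have hg : g ∈ H := by rw [hH]; trivial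
  obtain ⟨g'', h1, h2⟩ := hg
  have : g'' = g' := by
    apply OmQ.ext
    intro y
    obtain ⟨x, rfl⟩ := Tbij.2 y
    rw [h1, hgg]
  rw [h2, this]

lemma Sends.trans_conj {β : PG Q ≃* PG Q} {x y : V} (h : Sends β x y) (k : OmQ Q) :
    Sends (β.trans (MulAut.conj (pm k))) x (k.lin y) := by
  intro r
  rw [mem_PP_conj, h r]
  have : (pm k)⁻¹ * (β.trans (MulAut.conj (pm k))) r * pm k = β r := by
    change (pm k)⁻¹ * (pm k * β r * (pm k)⁻¹) * pm k = β r
    group
  rw [this]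

lemma Ind_conj {β : PG Q ≃* PG Q} {k : OmQ Q} {σ : F ≃+* F} {T : V → V} {c : F}
    (h : Ind (β.trans (MulAut.conj (pm k))) σ T c) : Ind β σ (fun x => k⁻¹.lin (T x)) c := by
  obtain ⟨h1, h2, h3, h4, h5, h6⟩ := h
  refine ⟨h1, k⁻¹.lin.bijective.comp h2, fun x y => by simp only [h3, map_add],
    fun t x => by simp only [h4, map_smul], fun x => by rw [OmQ.Q_lin, h5], ?_⟩
  intro g g' hgg
  have := h6 g (k * g' * k⁻¹) (by
    intro x
    rw [OmQ.lin_mul, OmQ.lin_mul, hgg, lin_inv_lin])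
  change pm k * β (pm g) * (pm k)⁻¹ = _ at this
  rw [map_mul, map_mul, map_inv] at this
  exact mul_left_cancel (mul_right_cancel this)

/-- **Main theorem**: every automorphism of `PΩ` is induced by a semisimilarity. -/
theorem main (p : ℕ) [Fact p.Prime] [CharP F p] (hyp : 10 ≤ finrank F V ∨
      ∀ U : Submodule F V, (∀ x ∈ U, Q x = 0) → 2 * finrank F U ≠ finrank F V)
    (β : PG Q ≃* PG Q) : ∃ (σ : F ≃+* F) (T : V → V) (c : F), Ind β σ T c := by
  have hS : ∀ β : PG Q ≃* PG Q, ∀ x, x ≠ 0 → Q x = 0 → ∃ y, y ≠ 0 ∧ Q y = 0 ∧ Sends β x y := by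
    intro β x hx0 hx
    obtain ⟨y, hy0, hy, e⟩ := step1 p hyp β hx0 hx
    exact ⟨y, hy0, hy, sends_of_map e⟩
  obtain ⟨u, v, h⟩ := exists_HP' (Q := Q)
  obtain ⟨u1, hu10, hu1, s1⟩ := hS β u h.u0 h.Qu
  have := omQ_isPretransitive hG.nd hG.five
  obtain ⟨k1, hk1⟩ := MulAction.exists_smul_eq (OmQ Q) (SingPt.mk Q u1 hu10 hu1) (SingPt.mk Q u h.u0 h.Qu)
  rw [OmQ.smul_mk, SingPt.mk_eq_mk_iff] at hk1
  obtain ⟨a, ha⟩ := hk1
  have ha0 : a ≠ 0 := by
    rintro rfl
    rw [zero_smul] at ha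
    exact k1.lin_ne_zero hu10 ha.symm
  set β1 := β.trans (MulAut.conj (pm k1)) with hβ1
  have s2 : Sends β1 u u := by
    have := (s1.trans_conj k1).smul_right (inv_ne_zero ha0)
    rwa [← ha, smul_smul, inv_mul_cancel₀ ha0, one_smul] at this
  obtain ⟨v1, hv10, hv1, s3⟩ := hS β1 v h.v0 h.Qv
  have hb : polar Q u v1 ≠ 0 :=
    s2.not_perp p s3 h.u0 h.Qu h.u0 h.Qu h.Qv hv1 (by rw [h.uv]; exact one_ne_zero)
  set b := polar Q u v1 with hbdef
  set y := b⁻¹ • v1 with hy
  have hQy : Q y = 0 := by rw [hy, QuadraticMap.map_smul, hv1, smul_zero]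
  have huy : polar Q u y = 1 := by rw [hy, polar_smul_right, ← hbdef, smul_eq_mul, inv_mul_cancel₀ hb]
  have hmv := eo_move h hQy huy
  have hw0 : polar Q u (v - y) = 0 := by rw [polar_sub_right, h.uv, huy, sub_self]
  set k2 := (eo Q u (v - y))⁻¹ with hk2
  have hk2y : k2.lin y = v := by
    have := inv_lin_lin (eo Q u (v - y)) v
    rwa [hmv] at this
  have hk2u : k2.lin u = u := by
    have e : (eo Q u (v - y)).lin u = u :=
      eo_fix_of_perp h.Qu hw0 h.uu (by rw [polar_comm]; exact hw0)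
    have := inv_lin_lin (eo Q u (v - y)) u
    rwa [e] at this
  set β2 := β1.trans (MulAut.conj (pm k2)) with hβ2
  have s4 : Sends β2 u u := by
    have := s2.trans_conj k2
    rwa [hk2u] at this
  have s5 : Sends β2 v v := by
    have := (s3.trans_conj k2).smul_right (inv_ne_zero hb)
    rwa [← map_smul, ← hy, hk2y] at this
  obtain ⟨σ, T, c, hI⟩ := normalized p h β2 (hS β2) s4 s5
  exact ⟨σ, _, c, Ind_conj (Ind_conj hI)⟩

end Cfsg.Agent.Lib.Helper45.OAut
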