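import Mathlib
import Cfsg.Prelude.Def_LieTypeDatum
import Cfsg.Agent.Lib.Helper45.OAutJ
import Cfsg.Agent.Lib.Helper44.MinusGeom
import Cfsg.Agent.Lib.Helper44.HypInv

set_option autoImplicit false
set_option linter.unusedSimpArgs false
set_option linter.unusedVariables false
set_option linter.unusedSectionVars false

/-! Automorphisms of `PΩ`: the statement in the language of the Prelude. -/

namespace Cfsg.Agent.Lib.Helper45.OAut

open QuadraticMap Module Matrix
open Cfsg.Agent.Lib.Helper44 Cfsg.Agent.Lib.Helper5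

variable {ι : Type} [Fintype ι] [DecidableEq ι] {F : Type*} [Field F] [Fintype F]

/-- every automorphism of `PΩ(Q)` is induced by a semisimilarity pair -/
theorem exists_pair (Q : QuadraticForm F (ι → F)) [hG : Good Q]
    (hyp : 10 ≤ finrank F (ι → F) ∨
      ∀ U : Submodule F (ι → F), (∀ x ∈ U, Q x = 0) → 2 * finrank F U ≠ finrank F (ι → F))
    (β : Cfsg.POmega F ⇑Q ≃* Cfsg.POmega F ⇑Q) :
    ∃ (g : GL ι F) (σ : F ≃+* F), Cfsg.IsSemisimilarityPair ⇑Q g σ ∧
      Cfsg.IsInducedBySemilinearPOmega ⇑Q g σ β := by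
  obtain ⟨p, hp⟩ := CharP.exists F
  have : Fact p.Prime := ⟨CharP.char_is_prime F p⟩
  set e := pOmegaEquiv Q with he
  obtain ⟨σ, T, c, hc0, hbij, hadd, hsmul, hQT, hind⟩ := main p hyp (e.symm.trans (β.trans e))
  let L : (ι → F) →ₗ[F] (ι → F) :=
    { toFun := fun x => T (fun i => σ.symm (x i))
      map_add' := by
        intro x y
        rw [← hadd]
        congr 1
        ext i
        simp
      map_smul' := by
        intro t x
        have : (fun i => σ.symm ((t • x) i)) = σ.symm t • (fun i => σ.symm (x i)) := by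
          ext i
          simp
        rw [this, hsmul]
        simp }
  have hL : Function.Bijective L := by
    constructor
    · intro x y hxy
      have := hbij.1 hxy
      ext i
      exact σ.symm.injective (congrFun this i)
    · intro y
      obtain ⟨x, rfl⟩ := hbij.2 y
      refine ⟨fun i => σ (x i), ?_⟩
      change T (fun i => σ.symm (σ (x i))) = T x
      simp
  let g : GL ι F := glEquiv.symm (LinearEquiv.ofBijective L hL)
  have hg : ∀ x, (g : Matrix ι ι F) *ᵥ x = T (fun i => σ.symm (x i)) := by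
    intro x
    rw [← glEquiv_apply]
    simp only [g, MulEquiv.apply_symm_apply]
    rfl
  have hg' : ∀ x : ι → F, (g : Matrix ι ι F) *ᵥ (fun i => σ (x i)) = T x := by
    intro x
    rw [hg]
    simp
  refine ⟨g, σ, ⟨Units.mk0 c hc0, fun v => ?_⟩, ?_⟩
  · rw [hg' v]
    exact hQT v
  · intro s s' hss
    have h1 := hind (commutatorEquiv (isoEquiv Q) s) (commutatorEquiv (isoEquiv Q) s') (by
      intro x
      change (isoEquiv Q s'.1 : (ι → F) ≃ₗ[F] (ι → F)) (T x) = T ((isoEquiv Q s.1 : (ι → F) ≃ₗ[F] (ι → F)) x)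
      rw [isoEquiv_apply, isoEquiv_apply, hss, ← hg' x, ← hg', Matrix.mulVec_mulVec, mul_assoc, mul_assoc]
      have e1 : ((g⁻¹ : GL ι F) : Matrix ι ι F) * (g : Matrix ι ι F) = 1 := by
        rw [← Units.val_mul, inv_mul_cancel]; rfl
      rw [e1, mul_one, ← Matrix.mulVec_mulVec]
      congr 1
      ext i
      exact (RingHom.map_mulVec (σ : F →+* F) _ x i).symm)
    have h2 : ∀ t : ↥(Cfsg.Omega F ⇑Q), e (QuotientGroup.mk t) = pm (commutatorEquiv (isoEquiv Q) t) :=
      fun t => rfl
    rw [← h2, ← h2] at h1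
    change e (β (e.symm (e (QuotientGroup.mk s)))) = _ at h1
    rw [e.symm_apply_apply] at h1
    exact e.injective h1

theorem gamma_top (Q : QuadraticForm F (ι → F)) [hG : Good Q]
    (hyp : 10 ≤ finrank F (ι → F) ∨
      ∀ U : Submodule F (ι → F), (∀ x ∈ U, Q x = 0) → 2 * finrank F U ≠ finrank F (ι → F)) :
    Cfsg.gammaPOmega F ⇑Q = ⊤ := by
  rw [eq_top_iff]
  intro β _
  exact Subgroup.subset_closure (exists_pair Q hyp β)

theorem gamma_top_odd (hodd : Odd (Fintype.card F)) {m : ℕ} (hm : 3 ≤ m) :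
    Cfsg.gammaPOmega F (Cfsg.quadFormOdd m F) = ⊤ := by
  have : Good (oddQF m F) := ⟨oddQF_nondeg m F (two_ne_zero_of_odd_card hodd), by simp; omega⟩
  rw [← oddQF_coe]
  apply gamma_top
  right
  intro U _
  simp
  omega

theorem gamma_top_plus {m : ℕ} (hm : 5 ≤ m) :
    Cfsg.gammaPOmega F (Cfsg.quadFormPlus m F) = ⊤ := by
  have : Good (plusQF m F) := ⟨plusQF_nondeg m F, by simp; omega⟩
  rw [← plusQF_coe]
  apply gamma_top
  left
  simp
  omega

theorem gamma_top_minus {m : ℕ} (hm : 3 ≤ m) (a b : F)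
    (hab : ∀ z₁ z₂ : F, z₁ ^ 2 + a * z₁ * z₂ + b * z₂ ^ 2 = 0 → z₁ = 0 ∧ z₂ = 0) :
    Cfsg.gammaPOmega F (Cfsg.quadFormMinus m F a b) = ⊤ := by
  have : Good (minusQF m F a b) := ⟨minusQF_nondeg m F hab, by simp; omega⟩
  rw [← minusQF_coe]
  apply gamma_top
  right
  intro U hU
  have := minus_finrank_sing_le hab U hU
  simp
  omega

end Cfsg.Agent.Lib.Helper45.OAut
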