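import Mathlib

set_option autoImplicit false

namespace Cfsg.Agent.Lib.Helper45

/-- A finite field with `q` elements embeds in a finite field with `q ^ n` elements -/
theorem exists_ringHom_of_card_pow {F K : Type*} [Field F] [Fintype F] [Field K] [Fintype K]
    {n : ℕ} (hK : Fintype.card K = Fintype.card F ^ n) : Nonempty (F →+* K) := by
  obtain ⟨p, hpF⟩ := CharP.exists F
  obtain ⟨p', hpK⟩ := CharP.exists K
  obtain ⟨k, hp, hFc⟩ := FiniteField.card F p
  obtain ⟨k', hp', hKc⟩ := FiniteField.card K p'
  have hpp' : p = p' := by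
    have h1 : p' ∣ p ^ ((k : ℕ) * n) := by
      rw [pow_mul, ← hFc, ← hK, hKc]
      exact dvd_pow_self _ k'.ne_zero
    exact ((Nat.prime_dvd_prime_iff_eq hp' hp).1 (hp'.dvd_of_dvd_pow h1)).symm
  subst hpp'
  have := fact_iff.2 hp
  let _ : Algebra (ZMod p) F := ZMod.algebra _ _
  let _ : Algebra (ZMod p) K := ZMod.algebra _ _
  have h1 : p ^ Module.finrank (ZMod p) F = p ^ (k : ℕ) := by
    rw [FiniteField.pow_finrank_eq_card, hFc]
  have h2 : p ^ Module.finrank (ZMod p) K = p ^ ((k : ℕ) * n) := by
    rw [FiniteField.pow_finrank_eq_card, hK, hFc, pow_mul]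
  have h1' := Nat.pow_right_injective hp.two_le h1
  have h2' := Nat.pow_right_injective hp.two_le h2
  obtain ⟨f⟩ := FiniteField.nonempty_algHom_of_finrank_dvd (F := ZMod p) (K := F) (L := K)
    (by rw [h1', h2']; exact dvd_mul_right _ _)
  exact ⟨f.toRingHom⟩

/-- If `K` has `q ^ 2` elements and `F` has `q`, then every monic quadratic over `F` without a root
in `F` has a root in `K` (for any embedding `i`). -/
theorem exists_root_quadratic {F K : Type*} [Field F] [Fintype F] [Field K] [Fintype K]
    (hK : Fintype.card K = Fintype.card F ^ 2) (i : F →+* K) (a c : F)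
    (hno : ∀ z : F, z ^ 2 + a * z + c ≠ 0) : ∃ r : K, r ^ 2 + i a * r + i c = 0 := by
  classical
  let _ : Algebra F K := i.toAlgebra
  have hfr : Module.finrank F K = 2 := by
    have h := Module.card_eq_pow_finrank (K := F) (V := K)
    rw [hK] at h
    exact (Nat.pow_right_injective (Fintype.one_lt_card (α := F)) h).symm
  let f : Polynomial F := Polynomial.X ^ 2 + Polynomial.C a * Polynomial.X + Polynomial.C c
  have hdeg : f.natDegree = 2 := by
    simp only [f]; compute_degree!
  have hmonic : f.Monic := by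
    simp only [f]; monicity!
  have hirr : Irreducible f := by
    rw [Polynomial.Monic.irreducible_iff_roots_eq_zero_of_degree_le_three hmonic (by omega) (by omega)]
    rw [Multiset.eq_zero_iff_forall_notMem]
    intro z hz
    rw [Polynomial.mem_roots hmonic.ne_zero] at hz
    apply hno z
    simpa [f, Polynomial.IsRoot] using hz
  have : Fact (Irreducible f) := ⟨hirr⟩
  have hfr2 : Module.finrank F (AdjoinRoot f) = 2 := by
    rw [← hdeg]
    exact (AdjoinRoot.powerBasis hirr.ne_zero).finrank.trans (by simp)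
  obtain ⟨ψ⟩ := FiniteField.nonempty_algHom_of_finrank_dvd (F := F) (K := AdjoinRoot f) (L := K)
    (by rw [hfr, hfr2])
  refine ⟨ψ (AdjoinRoot.root f), ?_⟩
  have h0 : Polynomial.aeval (AdjoinRoot.root f) f = 0 := AdjoinRoot.aeval_eq f ▸ AdjoinRoot.mk_self
  have h1 : Polynomial.aeval (ψ (AdjoinRoot.root f)) f = 0 := by
    rw [Polynomial.aeval_algHom_apply, h0, map_zero]
  generalize ψ (AdjoinRoot.root f) = r at h1
  have h2 : Polynomial.aeval r f = r ^ 2 + i a * r + i c := by
    simp only [f, map_add, map_mul, map_pow, Polynomial.aeval_X, Polynomial.aeval_C]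
    rfl
  rw [← h2, h1]

end Cfsg.Agent.Lib.Helper45
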